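import Cfsg.Agent.Lib.AutPSU.FieldLang

/-!
# Field automorphisms of `PSU_n(q)`: centraliser in `Inndiag` and splitting of the class
-/

set_option autoImplicit false
set_option linter.unusedSectionVars false
set_option linter.unusedSimpArgs false
set_option linter.unusedVariables false
set_option linter.style.haveILetI false

namespace Cfsg.Agent.Lib.AutPSU

open Module Matrix Cfsg Cfsg.Agent.Lib.SUGen Cfsg.Agent.Lib.HermForm Cfsg.Agent.Lib.HermOrtho
open Cfsg.Agent.Lib.Hilbert90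
open Cfsg.Agent.Lib.AutPSL (glMap glMap_coe nrm nrm_succ nrm_succ' glMap_scalar scalar_coe)
open scoped MatrixGroups

section Generic

variable {X : Type*} [Group X]

/-- Conjugating by an element normalising `H` does not change the isomorphism type of the centraliser. -/
theorem centr_conj_equiv' (H : Subgroup X) (α : X) (hα : ∀ h, h ∈ H ↔ α * h * α⁻¹ ∈ H) (x : X) :
    Nonempty (↥(H ⊓ Subgroup.centralizer {x}) ≃* ↥(H ⊓ Subgroup.centralizer {α * x * α⁻¹})) := by
  have h : (H ⊓ Subgroup.centralizer {x}).map (MulAut.conj α).toMonoidHom = H ⊓ Subgroup.centralizer {α * x * α⁻¹} := by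
    ext y
    constructor
    · rintro ⟨z, ⟨hz1, hz2⟩, rfl⟩
      refine ⟨(hα z).1 hz1, ?_⟩
      have hz2' : z ∈ Subgroup.centralizer {x} := hz2
      rw [Subgroup.mem_centralizer_singleton_iff] at hz2'
      change α * z * α⁻¹ ∈ Subgroup.centralizer {α * x * α⁻¹}
      rw [Subgroup.mem_centralizer_singleton_iff]
      calc α * z * α⁻¹ * (α * x * α⁻¹) = α * (z * x) * α⁻¹ := by group
        _ = α * (x * z) * α⁻¹ := by rw [hz2']
        _ = _ := by group
    · rintro ⟨hy1, hy2⟩
      refine ⟨α⁻¹ * y * α, ⟨?_, ?_⟩, ?_⟩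
      · apply (hα _).2
        have : α * (α⁻¹ * y * α) * α⁻¹ = y := by group
        rwa [this]
      · have hy2' : y ∈ Subgroup.centralizer {α * x * α⁻¹} := hy2
        rw [Subgroup.mem_centralizer_singleton_iff] at hy2'
        change α⁻¹ * y * α ∈ Subgroup.centralizer {x}
        rw [Subgroup.mem_centralizer_singleton_iff]
        have e1 : α⁻¹ * y * α * x = α⁻¹ * (y * (α * x * α⁻¹)) * α := by group
        have e2 : x * (α⁻¹ * y * α) = α⁻¹ * ((α * x * α⁻¹) * y) * α := by group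
        rw [e1, e2, hy2']
      · change α * (α⁻¹ * y * α) * α⁻¹ = y
        group
  exact ⟨((MulAut.conj α).subgroupMap (H ⊓ Subgroup.centralizer {x})).trans (MulEquiv.subgroupCongr h)⟩

/-- Conjugating by an element normalising `H` and `K` does not change the count of classes. -/
theorem splitClassCount_conj' (H K : Subgroup X) (α : X) (hH : ∀ h, h ∈ H ↔ α * h * α⁻¹ ∈ H)
    (hK : ∀ h, h ∈ K ↔ α * h * α⁻¹ ∈ K) (x : X) :
    splitClassCount H K (α * x * α⁻¹) = splitClassCount H K x := by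
  have hf : ∀ y, IsConjUnder H x y → IsConjUnder H (α * x * α⁻¹) (α * y * α⁻¹) := by
    rintro y ⟨h, hh, rfl⟩
    exact ⟨α * h * α⁻¹, (hH h).1 hh, by group⟩
  have hg : ∀ y, IsConjUnder H (α * x * α⁻¹) y → IsConjUnder H x (α⁻¹ * y * α) := by
    rintro y ⟨h, hh, rfl⟩
    refine ⟨α⁻¹ * h * α, (hH _).2 ?_, by group⟩
    have : α * (α⁻¹ * h * α) * α⁻¹ = h := by group
    rwa [this]
  let f : {y // IsConjUnder H x y} → {y // IsConjUnder H (α * x * α⁻¹) y} := fun y => ⟨α * y.1 * α⁻¹, hf _ y.2⟩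
  let g : {y // IsConjUnder H (α * x * α⁻¹) y} → {y // IsConjUnder H x y} := fun y => ⟨α⁻¹ * y.1 * α, hg _ y.2⟩
  have hf' : ∀ y z : {y // IsConjUnder H x y}, IsConjUnder K y.1 z.1 → IsConjUnder K (f y).1 (f z).1 := by
    rintro y z ⟨k, hk, he⟩
    refine ⟨α * k * α⁻¹, (hK k).1 hk, ?_⟩
    change α * z.1 * α⁻¹ = _ * (α * y.1 * α⁻¹) * _
    rw [he]
    group
  have hg' : ∀ y z : {y // IsConjUnder H (α * x * α⁻¹) y}, IsConjUnder K y.1 z.1 → IsConjUnder K (g y).1 (g z).1 := by
    rintro y z ⟨k, hk, he⟩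
    refine ⟨α⁻¹ * k * α, (hK _).2 ?_, ?_⟩
    · have : α * (α⁻¹ * k * α) * α⁻¹ = k := by group
      rwa [this]
    · change α⁻¹ * z.1 * α = _ * (α⁻¹ * y.1 * α) * _
      rw [he]
      group
  unfold splitClassCount
  apply Nat.card_congr
  refine ⟨Quot.map g hg', Quot.map f hf', ?_, ?_⟩
  · intro a
    induction a using Quot.ind with
    | mk y =>
      change Quot.mk _ (f (g y)) = Quot.mk _ y
      congr 1
      apply Subtype.ext
      change α * (α⁻¹ * y.1 * α) * α⁻¹ = y.1
      group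
  · intro a
    induction a using Quot.ind with
    | mk y =>
      change Quot.mk _ (g (f y)) = Quot.mk _ y
      congr 1
      apply Subtype.ext
      change α⁻¹ * (α * y.1 * α⁻¹) * α = y.1
      group

end Generic

variable {F : Type*} [Field F] [Fintype F] {q n : ℕ}

theorem pow_q_of_fixed {σ : F ≃+* F} {q₀ : ℕ} (hcard : Nat.card (fixedF σ) = q₀ ^ 2) (hqq : q = q₀ ^ orderOf σ)
    (hodd : Odd (orderOf σ)) {x : F} (hx : σ x = x) : x ^ q = x ^ q₀ := by
  classical
  haveI : Fintype (fixedF σ) := Fintype.ofFinite _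
  obtain ⟨k, hk⟩ := hodd
  have hc : Fintype.card (fixedF σ) = q₀ ^ 2 := by rw [← hcard, Nat.card_eq_fintype_card]
  have h1 : ((⟨x, hx⟩ : fixedF σ)) ^ (Fintype.card (fixedF σ)) ^ k = ⟨x, hx⟩ := FiniteField.pow_card_pow k _
  have h2 : x ^ (Fintype.card (fixedF σ)) ^ k = x := congrArg Subtype.val h1
  have h3 : q₀ ^ (2 * k + 1) = (q₀ ^ 2) ^ k * q₀ := by
    rw [pow_succ, pow_mul]
  rw [hqq, hk, h3, pow_mul, ← hc, h2]

section Map

variable {F₀ : Type*} [Field F₀] [Fintype F₀] {q₀ : ℕ}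

theorem map_mem_GU (hF : Fintype.card F = q ^ 2) (hF₀ : Fintype.card F₀ = q₀ ^ 2) (ι : F₀ →+* F)
    (hι : ∀ a, ι (a ^ q₀) = (ι a) ^ q) {g : GL (Fin n) F₀} (hg : g ∈ GU n F₀ q₀) :
    Matrix.GeneralLinearGroup.map ι g ∈ GU n F q := by
  apply mem_of_tr_mul_tau hF
  have h1 := tr_mul_tau_of_mem hF₀ hg
  have h2 := congrArg (fun M : Matrix (Fin n) (Fin n) F₀ => M.map ι) h1
  simp only [Matrix.map_mul] at h2
  have h3 : ((1 : Matrix (Fin n) (Fin n) F₀)).map ι = 1 := by
    ext i j
    simp [Matrix.one_apply, apply_ite]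
  rw [h3] at h2
  rw [← h2]
  change ((g : Matrix (Fin n) (Fin n) F₀).map ι)ᵀ * ((g : Matrix (Fin n) (Fin n) F₀).map ι).map (tauE hF) = _
  congr 1
  ext i j
  exact (hι _).symm

theorem mem_GU_of_map (hF : Fintype.card F = q ^ 2) (hF₀ : Fintype.card F₀ = q₀ ^ 2) (ι : F₀ →+* F)
    (hι : ∀ a, ι (a ^ q₀) = (ι a) ^ q) {g : GL (Fin n) F₀} (hg : Matrix.GeneralLinearGroup.map ι g ∈ GU n F q) :
    g ∈ GU n F₀ q₀ := by
  apply mem_of_tr_mul_tau hF₀
  have h1 := tr_mul_tau_of_mem hF hg
  ext i j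
  have h2 := congrFun (congrFun h1 i) j
  apply ι.injective
  have h3 : ∀ a b : Fin n, ι (if a = b then 1 else 0) = if a = b then 1 else 0 := by
    intro a b
    simp [apply_ite]
  rw [Matrix.one_apply, h3, ← Matrix.one_apply, ← h2]
  simp only [Matrix.mul_apply, map_sum, map_mul, Matrix.transpose_apply, Matrix.map_apply]
  refine Finset.sum_congr rfl fun k _ => ?_
  congr 1
  exact hι _

end Map

/-- Scalars act trivially. -/
theorem semiAut_scalar_one {c : Fˣ} (hc : (c : F) * (c : F) ^ q = 1) {g : GL (Fin n) F} (hg : g ∈ GU n F q)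
    (hgc : g = Matrix.GeneralLinearGroup.scalar (Fin n) c) : semiAut hg (RingEquiv.refl F) = 1 := by
  have h1 : g = Matrix.GeneralLinearGroup.scalar (Fin n) c * 1 := by rw [mul_one, hgc]
  rw [semiAut_congr hg (smulGL_mem hc (one_mem (GU n F q))) h1, semiAut_smulGL hc]
  exact (inHomU n F q).map_one

theorem faU_mul_inHomU (u : GU n F q) (σ : F ≃+* F) :
    faU n F q σ * inHomU n F q u = semiAut (glMap_mem u.2 σ) σ := by
  rw [faU, inHomU_apply, semiAut_mul]
  have h2 : σ * RingEquiv.refl F = σ := mul_one σ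
  simp only [h2]
  apply semiAut_congr
  simp only [gMul, one_mul]
  rfl

theorem commute_of_smul {u : GU n F q} {σ : F ≃+* F} {c : Fˣ} (hc : (c : F) * (c : F) ^ q = 1)
    (h : glMap σ u.1 = Matrix.GeneralLinearGroup.scalar (Fin n) c * u.1) :
    Commute (inHomU n F q u) (faU n F q σ) := by
  change inHomU n F q u * faU n F q σ = faU n F q σ * inHomU n F q u
  rw [faU_mul_inHomU, ← semiAut_eq_mul u.2 σ, semiAut_congr _ (smulGL_mem hc u.2) h, semiAut_smulGL hc]

theorem commute_of_fixed {u : GU n F q} {σ : F ≃+* F} (h : glMap σ u.1 = u.1) :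
    Commute (inHomU n F q u) (faU n F q σ) := by
  change inHomU n F q u * faU n F q σ = faU n F q σ * inHomU n F q u
  rw [faU_mul_inHomU, ← semiAut_eq_mul u.2 σ]
  exact semiAut_congr _ _ h.symm _

theorem norm_of_scalar_mem (hF : Fintype.card F = q ^ 2) (hn : 1 ≤ n) {g : GL (Fin n) F} (hg : g ∈ GU n F q) {c : Fˣ}
    (hgc : g = Matrix.GeneralLinearGroup.scalar (Fin n) c) : (c : F) * (c : F) ^ q = 1 := by
  have h1 := congrFun (congrFun (tr_mul_tau_of_mem hF hg) ⟨0, hn⟩) ⟨0, hn⟩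
  rw [hgc, scalar_coe, Matrix.mul_apply, Finset.sum_eq_single (⟨0, hn⟩ : Fin n)] at h1
  · simp only [Matrix.transpose_apply, Matrix.map_apply, Matrix.smul_apply, Matrix.one_apply_eq, smul_eq_mul, mul_one] at h1
    exact h1
  · intro b _ hb
    have hb' : (⟨0, hn⟩ : Fin n) ≠ b := fun h => hb h.symm
    simp [Matrix.one_apply_ne hb', Matrix.one_apply_ne hb]
  · intro h0
    exact absurd (Finset.mem_univ _) h0

section WithHyp

variable (hF : Fintype.card F = q ^ 2)
include hF

variable {p : ℕ} [hp : Fact p.Prime] [hch : CharP F p]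
include hp hch

/-- An element commuting with `faU σ` is up to a norm-one scalar fixed by `σ`. -/
theorem exists_fixed_unitary (hn : 3 ≤ n) {σ : F ≃+* F} (hodd : Odd (orderOf σ)) {u : GU n F q}
    (h : Commute (inHomU n F q u) (faU n F q σ)) :
    ∃ d : Fˣ, (d : F) * (d : F) ^ q = 1 ∧
      glMap σ (Matrix.GeneralLinearGroup.scalar (Fin n) d * u.1) = Matrix.GeneralLinearGroup.scalar (Fin n) d * u.1 := by
  have h1 : inHomU n F q u * faU n F q σ = faU n F q σ * inHomU n F q u := h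
  rw [faU_mul_inHomU, ← semiAut_eq_mul u.2 σ] at h1
  obtain ⟨-, μ, hμ, hμu⟩ := semiAut_eq_imp (p := p) hF hn _ _ h1
  have hμ0 : μ ≠ 0 := left_ne_zero_of_mul_eq_one hμ
  obtain ⟨i, j, hij⟩ := Cfsg.Agent.Lib.Hilbert90.exists_entry_ne_zero (by omega : 1 ≤ n) u.1
  have hσr : σ ^ orderOf σ = 1 := pow_orderOf_eq_one σ
  have h2 : σ ((u.1 : Matrix (Fin n) (Fin n) F) i j) = μ * (u.1 : Matrix (Fin n) (Fin n) F) i j := by
    have h3 := congrFun (congrFun hμu i) j
    exact h3
  have hN := pnorm_eq_one_of_fixed σ hσr hij h2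
  obtain ⟨c, hc0, hc1, hc2⟩ := exists_c hF σ hodd hμ hN
  refine ⟨Units.mk0 c hc0, hc1, ?_⟩
  apply Units.ext
  rw [glMap_coe, smulGL_val, Units.val_mk0]
  ext a b
  have h3 := congrFun (congrFun hμu a) b
  change ((glMap σ u.1 : GL (Fin n) F) : Matrix (Fin n) (Fin n) F) a b = μ * (u.1 : Matrix (Fin n) (Fin n) F) a b at h3
  rw [glMap_coe] at h3
  simp only [Matrix.map_apply, Matrix.smul_apply, smul_eq_mul, map_mul] at h3 ⊢
  rw [h3]
  linear_combination ((u.1 : Matrix (Fin n) (Fin n) F) a b) * hc2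

/-- The centraliser of a field automorphism in `Inndiag`. -/
theorem cent_equiv {F₀ : Type*} [Field F₀] [Fintype F₀] {q₀ : ℕ} (hn : 3 ≤ n) (σ : F ≃+* F) (hodd : Odd (orderOf σ))
    (hF₀ : Fintype.card F₀ = q₀ ^ 2) (hcard : Nat.card (fixedF σ) = q₀ ^ 2) (hqq : q = q₀ ^ orderOf σ) :
    Nonempty (↥(inndiagPSU n F q ⊓ Subgroup.centralizer {faU n F q σ}) ≃* PGU n F₀ q₀) := by
  classical
  haveI : Fintype (fixedF σ) := Fintype.ofFinite _
  have hc : Fintype.card F₀ = Fintype.card (fixedF σ) := by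
    rw [hF₀, ← hcard, Nat.card_eq_fintype_card]
  let e₀ : F₀ ≃+* fixedF σ := FiniteField.ringEquivOfCardEq hc
  let ι : F₀ →+* F := (fixedF σ).subtype.comp e₀.toRingHom
  have hισ : ∀ x, σ (ι x) = ι x := fun x => (e₀ x).2
  have hι : ∀ a, ι (a ^ q₀) = (ι a) ^ q := by
    intro a
    rw [map_pow, pow_q_of_fixed hcard hqq hodd (hισ a)]
  have hιinj : Function.Injective ι := ι.injective
  let ι' : GU n F₀ q₀ →* GU n F q :=
    ((Matrix.GeneralLinearGroup.map ι).comp (GU n F₀ q₀).subtype).codRestrict (GU n F q)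
      (fun g => map_mem_GU hF hF₀ ι hι g.2)
  have hι'v : ∀ g : GU n F₀ q₀, ((ι' g).1 : Matrix (Fin n) (Fin n) F) = (g.1 : Matrix (Fin n) (Fin n) F₀).map ι := fun _ => rfl
  have hfix : ∀ g : GU n F₀ q₀, glMap σ (ι' g).1 = (ι' g).1 := by
    intro g
    apply Units.ext
    rw [glMap_coe, hι'v]
    ext i j
    exact hισ _
  have hmem : ∀ g : GU n F₀ q₀, inHomU n F q (ι' g) ∈ inndiagPSU n F q ⊓ Subgroup.centralizer {faU n F q σ} := by
    intro g
    refine ⟨(mem_inndiag_iff _).2 ⟨_, rfl⟩, ?_⟩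
    change _ ∈ Subgroup.centralizer {faU n F q σ}
    rw [Subgroup.mem_centralizer_singleton_iff]
    exact commute_of_fixed (hfix g)
  let P : GU n F₀ q₀ →* ↥(inndiagPSU n F q ⊓ Subgroup.centralizer {faU n F q σ}) :=
    ((inHomU n F q).comp ι').codRestrict _ hmem
  have hP : ∀ g, ((P g : ↥(inndiagPSU n F q ⊓ Subgroup.centralizer {faU n F q σ})) : MulAut (PSU n F q)) = inHomU n F q (ι' g) := fun _ => rfl
  have hsurj : Function.Surjective P := by
    rintro ⟨β, hβ1, hβ2⟩
    obtain ⟨u, rfl⟩ := (mem_inndiag_iff β).1 hβ1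
    have hβ2' : inHomU n F q u ∈ Subgroup.centralizer {faU n F q σ} := hβ2
    rw [Subgroup.mem_centralizer_singleton_iff] at hβ2'
    obtain ⟨d, hd1, hd2⟩ := exists_fixed_unitary (p := p) hF hn hodd (u := u) hβ2'
    set u' := Matrix.GeneralLinearGroup.scalar (Fin n) d * u.1 with hu'
    have hu'mem : u' ∈ GU n F q := smulGL_mem hd1 u.2
    have hfix' : ∀ i j, (u' : Matrix (Fin n) (Fin n) F) i j ∈ fixedF σ := by
      intro i j
      have h1 := congrArg (fun g : GL (Fin n) F => (g : Matrix (Fin n) (Fin n) F) i j) hd2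
      exact h1
    let M : Matrix (Fin n) (Fin n) F₀ := fun i j => e₀.symm ⟨(u' : Matrix (Fin n) (Fin n) F) i j, hfix' i j⟩
    have hM : M.map ι = u' := by
      ext i j
      change ((e₀ (e₀.symm ⟨(u' : Matrix (Fin n) (Fin n) F) i j, hfix' i j⟩) : fixedF σ) : F) = _
      simp
    have hdet : M.det ≠ 0 := by
      intro h0
      have h1 : (M.map ι).det = ι M.det := (RingHom.map_det ι M).symm
      rw [hM, h0, map_zero] at h1
      have h2 := (Matrix.GeneralLinearGroup.det u').ne_zero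
      exact h2 h1
    have h3 : Matrix.GeneralLinearGroup.map ι (Matrix.GeneralLinearGroup.mkOfDetNeZero M hdet) = u' := by
      apply Units.ext
      exact hM
    have hMmem : Matrix.GeneralLinearGroup.mkOfDetNeZero M hdet ∈ GU n F₀ q₀ := by
      apply mem_GU_of_map hF hF₀ ι hι
      rw [h3]
      exact hu'mem
    refine ⟨⟨_, hMmem⟩, ?_⟩
    apply Subtype.ext
    rw [hP]
    change inHomU n F q _ = inHomU n F q u
    rw [inHomU_apply, inHomU_apply, ← semiAut_smulGL hd1 u.2]
    exact semiAut_congr _ _ h3 _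
  have hker : (Geo.scalars (Fin n) F₀).subgroupOf (GU n F₀ q₀) = P.ker := by
    ext g
    rw [MonoidHom.mem_ker, Subgroup.mem_subgroupOf, Geo.mem_scalars_iff]
    constructor
    · rintro ⟨c, hc⟩
      apply Subtype.ext
      rw [hP, inHomU_apply]
      change _ = (1 : MulAut (PSU n F q))
      have hgc : (ι' g).1 = Matrix.GeneralLinearGroup.scalar (Fin n) (Units.map (ι : F₀ →* F) c) := by
        apply Units.ext
        rw [scalar_coe, hι'v, hc]
        ext i j
        by_cases hij : i = j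
        · subst hij
          simp
        · simp [hij]
      exact semiAut_scalar_one (norm_of_scalar_mem hF (by omega) (ι' g).2 hgc) (ι' g).2 hgc
    · intro hg
      have h0 : inHomU n F q (ι' g) = 1 := by
        rw [← hP, hg]
        rfl
      have h1 : semiAut (one_mem (GU n F q)) (RingEquiv.refl F) = semiAut (ι' g).2 (RingEquiv.refl F) := by
        rw [← inHomU_apply]
        exact ((inHomU n F q).map_one).trans h0.symm
      obtain ⟨-, μ, hμ, hμg⟩ := semiAut_eq_imp (p := p) hF hn _ _ h1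
      have hμ0 : μ ≠ 0 := left_ne_zero_of_mul_eq_one hμ
      rw [hι'v, Units.val_one] at hμg
      have hoff : ∀ i j, i ≠ j → (g.1 : Matrix (Fin n) (Fin n) F₀) i j = 0 := by
        intro i j hij
        have h2 := congrFun (congrFun hμg i) j
        simp only [Matrix.map_apply, Matrix.smul_apply, Matrix.one_apply_ne hij, smul_zero] at h2
        apply hιinj
        rw [map_zero]
        exact h2
      have hdg : ∀ i, ι ((g.1 : Matrix (Fin n) (Fin n) F₀) i i) = μ := by
        intro i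
        have h2 := congrFun (congrFun hμg i) i
        simpa only [Matrix.map_apply, Matrix.smul_apply, Matrix.one_apply_eq, smul_eq_mul, mul_one] using h2
      set i₀ : Fin n := ⟨0, by omega⟩ with hi₀
      have ha : (g.1 : Matrix (Fin n) (Fin n) F₀) i₀ i₀ ≠ 0 := by
        intro h3
        have := hdg i₀
        rw [h3, map_zero] at this
        exact hμ0 this.symm
      refine ⟨Units.mk0 _ ha, ?_⟩
      ext i j
      by_cases hij : i = j
      · subst hij
        simp only [Units.val_mk0, Matrix.smul_apply, Matrix.one_apply_eq, smul_eq_mul, mul_one]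
        apply hιinj
        rw [hdg, hdg]
      · simp [hoff i j hij, hij]
  exact ⟨((QuotientGroup.quotientMulEquivOfEq hker).trans (QuotientGroup.quotientKerEquivOfSurjective P hsurj)).symm⟩

end WithHyp

end Cfsg.Agent.Lib.AutPSU
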