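import Cfsg.Agent.Lib.AutPSU.FieldAut

/-!
# Field automorphisms of `PSU_n(q)`: Lang-type conjugacy
-/

set_option autoImplicit false
set_option linter.unusedSectionVars false
set_option linter.unusedSimpArgs false
set_option linter.unusedVariables false
set_option linter.style.haveILetI false

namespace Cfsg.Agent.Lib.AutPSU

open Module Matrix Cfsg Cfsg.Agent.Lib.SUGen Cfsg.Agent.Lib.HermForm Cfsg.Agent.Lib.HermOrtho
open Cfsg.Agent.Lib.Hilbert90
open Cfsg.Agent.Lib.AutPSL (glMap glMap_coe nrm nrm_succ nrm_succ' glMap_scalar scalar_coe)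
open scoped MatrixGroups

variable {F : Type*} [Field F] [Fintype F] {q n : ℕ}

theorem tr_mul_tau_of_mem (hF : Fintype.card F = q ^ 2) {g : GL (Fin n) F} (hg : g ∈ GU n F q) :
    (g : Matrix (Fin n) (Fin n) F)ᵀ * (g : Matrix (Fin n) (Fin n) F).map (tauE hF) = 1 :=
  Cfsg.Agent.Lib.UnitarySU.transpose_mul_map_sigma hF (fun u v => hg u v)

theorem mem_of_tr_mul_tau (hF : Fintype.card F = q ^ 2) {g : GL (Fin n) F}
    (h : (g : Matrix (Fin n) (Fin n) F)ᵀ * (g : Matrix (Fin n) (Fin n) F).map (tauE hF) = 1) : g ∈ GU n F q :=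
  fun u v => Cfsg.Agent.Lib.GUField.preserve_of_relation hF h u v

/-- Descent of Hermitian forms to the fixed field. -/
theorem exists_descent (hF : Fintype.card F = q ^ 2) (σ : F ≃+* F) (hodd : Odd (orderOf σ)) (S : Matrix (Fin n) (Fin n) F)
    (hσ : S.map σ = S) (hτ : (S.map (tauE hF))ᵀ = S) (hdet : S.det ≠ 0) :
    ∃ D : GL (Fin n) F, (D : Matrix (Fin n) (Fin n) F).map σ = D ∧
      (D : Matrix (Fin n) (Fin n) F)ᵀ * S * (D : Matrix (Fin n) (Fin n) F).map (tauE hF) = 1 := by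
  classical
  haveI : Fintype (fixedF σ) := Fintype.ofFinite _
  let ι : fixedF σ →+* F := (fixedF σ).subtype
  have hfix : ∀ i j, S i j ∈ fixedF σ := fun i j => congrFun (congrFun hσ i) j
  let S₀ : Matrix (Fin n) (Fin n) (fixedF σ) := fun i j => ⟨S i j, hfix i j⟩
  have hS₀ : S₀.map ι = S := by
    ext i j
    rfl
  have hdet₀ : S₀.det ≠ 0 := by
    intro h0
    have h1 : (S₀.map ι).det = ι S₀.det := (RingHom.map_det ι S₀).symm
    rw [hS₀, h0, map_zero] at h1
    exact hdet h1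
  let H : GL (Fin n) (fixedF σ) := Matrix.GeneralLinearGroup.mkOfDetNeZero S₀ hdet₀
  have hHv : (H : Matrix (Fin n) (Fin n) (fixedF σ)) = S₀ := rfl
  have hH : (((H : Matrix (Fin n) (Fin n) (fixedF σ))).map (tau₀ hF σ))ᵀ = H := by
    rw [hHv]
    ext i j
    exact congrFun (congrFun hτ i) j
  obtain ⟨C, hC⟩ := Cfsg.Agent.Lib.AutPSL.herm_class (tau₀ hF σ) (orderOf_tau₀ hF σ hodd) H hH
  let c : GL (Fin n) F := Matrix.GeneralLinearGroup.map ι C
  have hcv : ∀ C' : GL (Fin n) (fixedF σ), ((Matrix.GeneralLinearGroup.map ι C' : GL (Fin n) F) : Matrix (Fin n) (Fin n) F) =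
      (C' : Matrix (Fin n) (Fin n) (fixedF σ)).map ι := fun _ => rfl
  have hS : S = (c : Matrix (Fin n) (Fin n) F) * ((c : Matrix (Fin n) (Fin n) F).map (tauE hF))ᵀ := by
    have h1 := congrArg (fun M : Matrix (Fin n) (Fin n) (fixedF σ) => M.map ι) hC
    simp only [hHv, hS₀] at h1
    rw [h1, Matrix.map_mul, hcv]
    congr 1
  have hM : (((c⁻¹ : GL (Fin n) F) : Matrix (Fin n) (Fin n) F)ᵀ).det ≠ 0 := by
    rw [Matrix.det_transpose]
    exact (Matrix.GeneralLinearGroup.det (c⁻¹ : GL (Fin n) F)).ne_zero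
  refine ⟨Matrix.GeneralLinearGroup.mkOfDetNeZero _ hM, ?_, ?_⟩
  · change (((c⁻¹ : GL (Fin n) F) : Matrix (Fin n) (Fin n) F)ᵀ).map σ = ((c⁻¹ : GL (Fin n) F) : Matrix (Fin n) (Fin n) F)ᵀ
    have h1 : (c⁻¹ : GL (Fin n) F) = Matrix.GeneralLinearGroup.map ι C⁻¹ := (map_inv _ _).symm
    rw [h1, hcv]
    ext i j
    exact ((C⁻¹ : GL (Fin n) (fixedF σ)) : Matrix (Fin n) (Fin n) (fixedF σ)) j i |>.2
  · change (((c⁻¹ : GL (Fin n) F) : Matrix (Fin n) (Fin n) F)ᵀ)ᵀ * S * (((c⁻¹ : GL (Fin n) F) : Matrix (Fin n) (Fin n) F)ᵀ).map (tauE hF) = 1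
    rw [Matrix.transpose_transpose, hS, ← Matrix.mul_assoc, Cfsg.Agent.Lib.AutPSL.gl_inv_mul, Matrix.one_mul, Matrix.transpose_map,
      ← Matrix.transpose_mul, ← Matrix.map_mul, Cfsg.Agent.Lib.AutPSL.gl_inv_mul]
    ext i j
    simp [Matrix.one_apply, apply_ite, eq_comm]

variable (hF : Fintype.card F = q ^ 2)
include hF

variable {p : ℕ} [hp : Fact p.Prime] [hch : CharP F p]
include hp hch

/-- Lang-type theorem for field automorphisms of `PSU`. -/
theorem lang_U (hn : 3 ≤ n) (σ : F ≃+* F) (hodd : Odd (orderOf σ)) {g : GL (Fin n) F} (hg : g ∈ GU n F q)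
    (hy : (semiAut hg σ) ^ orderOf σ = 1) :
    ∃ h : GU n F q, semiAut hg σ = inHomU n F q h * faU n F q σ * (inHomU n F q h)⁻¹ := by
  set r := orderOf σ with hr
  have hr0 : 0 < r := hodd.pos
  have hσr : σ ^ r = 1 := by rw [hr]; exact pow_orderOf_eq_one σ
  rw [semiAut_pow, hσr] at hy
  have hy' : semiAut (nrm_mem hg σ r) 1 = semiAut (one_mem (GU n F q)) 1 := hy.trans (faU_one (n := n) (F := F) (q := q)).symm
  obtain ⟨-, μ, hμ, hμN⟩ := semiAut_eq_imp (p := p) hF hn _ _ hy'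
  have hμ0 : μ ≠ 0 := left_ne_zero_of_mul_eq_one hμ
  -- the norm of `g` is the scalar `c = μ⁻¹`
  set c : Fˣ := (Units.mk0 μ hμ0)⁻¹ with hcdef
  have hcv : (c : F) = μ⁻¹ := rfl
  have hc : nrm σ g r = Matrix.GeneralLinearGroup.scalar (Fin n) c := by
    apply Units.ext
    rw [scalar_coe, hcv, Units.val_one] at *
    rw [eq_inv_smul_iff₀ hμ0]
    exact hμN.symm
  have hcent : ∀ (u : Fˣ) (x : GL (Fin n) F), Matrix.GeneralLinearGroup.scalar (Fin n) u * x = x * Matrix.GeneralLinearGroup.scalar (Fin n) u := by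
    intro u x
    have h : (Matrix.GeneralLinearGroup.scalar (Fin n) u : GL (Fin n) F) ∈ Subgroup.center (GL (Fin n) F) := by
      rw [Matrix.GeneralLinearGroup.center_eq_range_scalar]
      exact ⟨u, rfl⟩
    exact (Subgroup.mem_center_iff.mp h x).symm
  have hc1 : σ (c : F) = c := by
    have h1 := nrm_succ σ g r
    rw [nrm_succ', hσr, Cfsg.Agent.Lib.AutPSL.glMap_one_apply, hc, hcent] at h1
    have h4 := mul_left_cancel h1
    rw [glMap_scalar] at h4
    exact congrArg Units.val (Cfsg.Agent.Lib.AutPSL.scalar_injective (by omega) h4).symm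
  have hc2 : (c : F) * tauE hF (c : F) = 1 := by
    rw [hcv, map_inv₀, tauE_apply, ← mul_inv, hμ, inv_one]
  obtain ⟨ν, hν0, hν, hνn⟩ := exists_nu hF σ hodd hc1 hc2
  set d : Fˣ := (Units.mk0 ν hν0)⁻¹ with hddef
  have hdv : (d : F) = ν⁻¹ := rfl
  have hd1 : (d : F) * (d : F) ^ q = 1 := by
    rw [← tauE_apply hF, hdv, map_inv₀, ← mul_inv, hν, inv_one]
  -- the modified matrix
  set g₁ : GL (Fin n) F := Matrix.GeneralLinearGroup.scalar (Fin n) d * g with hg₁
  have hg₁mem : g₁ ∈ GU n F q := smulGL_mem hd1 hg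
  have hsem : semiAut hg₁mem σ = semiAut hg σ := semiAut_smulGL hd1 hg σ
  have hN : nrm σ g₁ r = 1 := by
    rw [hg₁, hcent]
    obtain ⟨e, he, hk⟩ := Cfsg.Agent.Lib.AutPSL.nrm_mul_scalar σ g d r
    rw [hk, hc]
    have he' : e = c⁻¹ := by
      apply Units.ext
      rw [he, hdv, Units.val_inv_eq_inv_val, pnorm_inv', hνn]
    rw [he', ← map_mul, mul_inv_cancel, map_one]
  obtain ⟨A, hA⟩ := Cfsg.Agent.Lib.AutPSL.h90 σ hr0 hr.symm _ hN
  -- the Hermitian matrix
  set S : Matrix (Fin n) (Fin n) F := (A : Matrix (Fin n) (Fin n) F)ᵀ * (A : Matrix (Fin n) (Fin n) F).map (tauE hF) with hS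
  have hAσ : glMap σ A = g₁⁻¹ * A := by
    rw [hA, _root_.mul_inv_rev, map_inv]
    group
  have hg₁inv := tr_mul_tau_of_mem hF (inv_mem hg₁mem)
  have hmaptau : ∀ M : Matrix (Fin n) (Fin n) F, (M.map (tauE hF)).map σ = (M.map σ).map (tauE hF) := by
    intro M
    ext i j
    exact map_tauE hF σ (M i j)
  have hSσ : S.map σ = S := by
    have h1 : (A : Matrix (Fin n) (Fin n) F).map σ = ((g₁⁻¹ * A : GL (Fin n) F) : Matrix (Fin n) (Fin n) F) := by
      rw [← hAσ]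
      rfl
    rw [hS, Matrix.map_mul, Matrix.transpose_map, hmaptau, h1, Units.val_mul, Matrix.transpose_mul, Matrix.map_mul]
    calc _ = (A : Matrix (Fin n) (Fin n) F)ᵀ * (((g₁⁻¹ : GL (Fin n) F) : Matrix (Fin n) (Fin n) F)ᵀ *
            ((g₁⁻¹ : GL (Fin n) F) : Matrix (Fin n) (Fin n) F).map (tauE hF)) * (A : Matrix (Fin n) (Fin n) F).map (tauE hF) := by
          simp only [Matrix.mul_assoc]
      _ = _ := by rw [hg₁inv, Matrix.mul_one]
  have hSτ : (S.map (tauE hF))ᵀ = S := by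
    have h1 : ∀ M : Matrix (Fin n) (Fin n) F, (M.map (tauE hF)).map (tauE hF) = M := by
      intro M
      ext i j
      exact tauE_tauE hF (M i j)
    rw [hS, Matrix.map_mul, Matrix.transpose_mul, h1, Matrix.transpose_map, Matrix.transpose_transpose]
  have hSdet : S.det ≠ 0 := by
    rw [hS, Matrix.det_mul, Matrix.det_transpose]
    have h1 : ((A : Matrix (Fin n) (Fin n) F).map (tauE hF)).det = tauE hF (A : Matrix (Fin n) (Fin n) F).det :=
      (RingHom.map_det (tauE hF : F →+* F) _).symm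
    rw [h1]
    have h2 : (A : Matrix (Fin n) (Fin n) F).det ≠ 0 := (Matrix.GeneralLinearGroup.det A).ne_zero
    exact mul_ne_zero h2 ((map_ne_zero (tauE hF)).2 h2)
  obtain ⟨D, hDσ, hD⟩ := exists_descent hF σ hodd S hSσ hSτ hSdet
  -- the unitary conjugator
  have hAD : A * D ∈ GU n F q := by
    apply mem_of_tr_mul_tau hF
    rw [Units.val_mul, Matrix.transpose_mul, Matrix.map_mul]
    calc _ = (D : Matrix (Fin n) (Fin n) F)ᵀ * S * (D : Matrix (Fin n) (Fin n) F).map (tauE hF) := by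
          rw [hS]
          simp only [Matrix.mul_assoc]
      _ = 1 := hD
  have hDσ' : glMap σ D = D := Units.ext hDσ
  have hgm : g₁ = gMul (A * D) (A * D)⁻¹ σ := by
    change g₁ = (A * D) * glMap σ (A * D)⁻¹
    rw [_root_.mul_inv_rev, map_mul, map_inv, hDσ', hA]
    group
  refine ⟨⟨A * D, hAD⟩, ?_⟩
  have h1 : (inHomU n F q ⟨A * D, hAD⟩)⁻¹ = semiAut (inv_mem hAD) (RingEquiv.refl F) := by
    rw [← map_inv]
    rfl
  rw [h1, ← semiAut_eq_mul, semiAut_mul]
  rw [← hsem]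
  exact semiAut_congr _ _ hgm _

/-- The conjugacy statement. -/
theorem conj_of_order (hn : 3 ≤ n) (h32 : ¬ (n = 3 ∧ q = 2)) (x δ : MulAut (PSU n F q)) (hx : IsFieldAutClassPSU x)
    (hδ : δ ∈ inndiagPSU n F q) (ho : orderOf (δ * x) = orderOf x) : IsConjUnder (inndiagPSU n F q) x (δ * x) := by
  obtain ⟨α, φ, σ, -, hodd, hφ, hαx⟩ := hx
  rw [eq_faU hφ] at hαx
  have hox : orderOf x = orderOf σ := by
    have h1 : orderOf (α * x * α⁻¹) = orderOf x := ((SemiconjBy.conj_mk α x).orderOf_eq α).symm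
    rw [hαx, orderOf_faU (p := p) hF hn] at h1
    exact h1.symm
  obtain ⟨g, hg⟩ := (mem_inndiag_iff _).1 (conj_mem_inndiag (p := p) hF hn h32 α hδ)
  have hy : semiAut g.2 σ = α * (δ * x) * α⁻¹ := by
    rw [semiAut_eq_mul]
    change inHomU n F q g * _ = _
    rw [hg, ← hαx]
    group
  have hoy : orderOf (semiAut g.2 σ) = orderOf σ := by
    rw [hy, ← hox, ← ho]
    exact ((SemiconjBy.conj_mk α (δ * x)).orderOf_eq α).symm
  obtain ⟨h, hh⟩ := lang_U (p := p) hF hn σ hodd g.2 (by rw [← hoy]; exact pow_orderOf_eq_one _)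
  refine ⟨α⁻¹ * inHomU n F q h * α, ?_, ?_⟩
  · have := conj_mem_inndiag (p := p) hF hn h32 α⁻¹ ((mem_inndiag_iff _).2 ⟨h, rfl⟩)
    rwa [inv_inv] at this
  · rw [hy, ← hαx] at hh
    have h2 : δ * x = α⁻¹ * (α * (δ * x) * α⁻¹) * α := by group
    rw [h2, hh]
    group

end Cfsg.Agent.Lib.AutPSU
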