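import Cfsg.Agent.Lib.AutPSU.FieldCentU

/-!
# Field automorphisms of `PSU_n(q)`: splitting of the `Inndiag`-class under `Inn`
-/

set_option autoImplicit false
set_option linter.unusedSectionVars false
set_option linter.unusedSimpArgs false
set_option linter.unusedVariables false
set_option linter.style.haveILetI false

namespace Cfsg.Agent.Lib.AutPSU

open Module Matrix Cfsg Cfsg.Agent.Lib.SUGen Cfsg.Agent.Lib.HermForm Cfsg.Agent.Lib.HermOrtho
open Cfsg.Agent.Lib.Hilbert90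
open Cfsg.Agent.Lib.AutPSL (glMap glMap_coe nrm nrm_succ nrm_succ' glMap_scalar scalar_coe dg dg_coe dg_det glMap_dg)
open Cfsg.Agent.Lib.UnitarySU (detGU detGU_val detGU_range_card nrm_det diagonal_unitary card_units_nrm_one)
open scoped MatrixGroups

variable {F : Type*} [Field F] [Fintype F] {q n : ℕ}

/-- A diagonal matrix in `GU`. -/
theorem dg_mem (i₀ : Fin n) {t : Fˣ} (ht : (t : F) * (t : F) ^ q = 1) : dg i₀ t ∈ GU n F q := by
  intro u v
  change hermForm n F q ((dg i₀ t : Matrix (Fin n) (Fin n) F) *ᵥ u) ((dg i₀ t : Matrix (Fin n) (Fin n) F) *ᵥ v) = _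
  rw [dg_coe]
  apply diagonal_unitary
  intro i
  by_cases hi : i = i₀
  · rw [if_pos hi]
    exact ht
  · rw [if_neg hi]
    simp [Cfsg.Agent.Lib.HermCount.nrm]

theorem mem_detGU_range (hF : Fintype.card F = q ^ 2) (hn : 1 ≤ n) (u : Fˣ) :
    u ∈ (detGU n F q).range ↔ (u : F) * (u : F) ^ q = 1 := by
  constructor
  · rintro ⟨g, rfl⟩
    rw [detGU_val]
    exact nrm_det hF (fun u v => g.2 u v)
  · intro hu
    refine ⟨⟨dg ⟨0, hn⟩ u, dg_mem _ hu⟩, ?_⟩
    exact dg_det _ _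

theorem inHomU_mem_Inn_of_det {k : GU n F q} {a : Fˣ} (ha : (a : F) * (a : F) ^ q = 1)
    (hdet : detGU n F q k = a ^ n) : inHomU n F q k ∈ Inn (PSU n F q) := by
  have hb : (((a⁻¹ : Fˣ) : F)) * ((a⁻¹ : Fˣ) : F) ^ q = 1 := by
    rw [Units.val_inv_eq_inv_val, inv_pow, ← mul_inv, ha, inv_one]
  set g := Matrix.GeneralLinearGroup.scalar (Fin n) a⁻¹ * k.1 with hg
  have hgmem : g ∈ GU n F q := smulGL_mem hb k.2
  have hdetg : (g : Matrix (Fin n) (Fin n) F).det = 1 := by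
    rw [hg, smulGL_val, Matrix.det_smul, Fintype.card_fin]
    have h1 : (k.1 : Matrix (Fin n) (Fin n) F).det = ((a ^ n : Fˣ) : F) := by
      rw [← detGU_val, hdet]
    rw [h1, Units.val_inv_eq_inv_val, Units.val_pow_eq_pow_val, inv_pow]
    exact inv_mul_cancel₀ (pow_ne_zero _ a.ne_zero)
  let s : SU n F q := ⟨⟨(g : Matrix (Fin n) (Fin n) F), hdetg⟩, fun u v => hgmem u v⟩
  have hs : suGL s = g := by
    apply Units.ext
    rfl
  refine ⟨piT n F q s, ?_⟩
  rw [← semiAut_suGL, inHomU_apply, ← semiAut_smulGL hb k.2]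
  exact semiAut_congr _ _ hs _

theorem det_of_inHomU_mem_Inn (hF : Fintype.card F = q ^ 2) {p : ℕ} [hp : Fact p.Prime] [hch : CharP F p] (hn : 3 ≤ n)
    {k : GU n F q} (h : inHomU n F q k ∈ Inn (PSU n F q)) :
    ∃ a : Fˣ, (a : F) * (a : F) ^ q = 1 ∧ detGU n F q k = a ^ n := by
  obtain ⟨x, hx⟩ := h
  obtain ⟨s, rfl⟩ := piT_surj x
  have hx' : MulAut.conj (piT n F q s) = semiAut k.2 (RingEquiv.refl F) := hx
  rw [← semiAut_suGL] at hx'
  obtain ⟨-, μ, hμ, hμk⟩ := semiAut_eq_imp (p := p) hF hn _ _ hx'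
  have hμ0 : μ ≠ 0 := left_ne_zero_of_mul_eq_one hμ
  refine ⟨Units.mk0 μ hμ0, hμ, ?_⟩
  apply Units.ext
  rw [detGU_val, hμk, Matrix.det_smul, Fintype.card_fin, suGL_val]
  have h1 : (s.1.1 : Matrix (Fin n) (Fin n) F).det = 1 := s.1.2
  rw [h1, mul_one]
  simp

/-- The number of classes. -/
theorem split_count_U (hF : Fintype.card F = q ^ 2) {p : ℕ} [hp : Fact p.Prime] [hch : CharP F p] (hn : 3 ≤ n) (σ : F ≃+* F)
    (hodd : Odd (orderOf σ)) {q₀ : ℕ} (hcard : Nat.card (fixedF σ) = q₀ ^ 2) (hqq : q = q₀ ^ orderOf σ) :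
    splitClassCount (inndiagPSU n F q) (Inn (PSU n F q)) (faU n F q σ) = Nat.gcd ((q + 1) / (q₀ + 1)) n := by
  classical
  haveI : Fintype (fixedF σ) := Fintype.ofFinite _
  have hn1 : 1 ≤ n := by omega
  have hcardF : Fintype.card (fixedF σ) = q₀ ^ 2 := by rw [← hcard, Nat.card_eq_fintype_card]
  set U := (detGU n F q).range with hU
  let dd : GU n F q →* U := (detGU n F q).rangeRestrict
  have hdd : Function.Surjective dd := MonoidHom.rangeRestrict_surjective _
  let T : Subgroup U :=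
    { carrier := {t | σ ((t : Fˣ) : F) = ((t : Fˣ) : F)}
      mul_mem' := by
        intro a b ha hb
        change σ (((a : Fˣ) : F) * ((b : Fˣ) : F)) = ((a : Fˣ) : F) * ((b : Fˣ) : F)
        rw [map_mul, ha, hb]
      one_mem' := map_one σ
      inv_mem' := by
        intro a ha
        have h : σ ((a : Fˣ) : F) = ((a : Fˣ) : F) := ha
        change σ (((a⁻¹ : U) : Fˣ) : F) = (((a⁻¹ : U) : Fˣ) : F)
        rw [Subgroup.coe_inv, Units.val_inv_eq_inv_val, map_inv₀, h] }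
  have hT : ∀ t : U, t ∈ T ↔ σ ((t : Fˣ) : F) = ((t : Fˣ) : F) := fun _ => Iff.rfl
  have hTcard : Nat.card T = q₀ + 1 := by
    rw [← card_units_nrm_one (F := fixedF σ) hcardF]
    symm
    have hmem : ∀ u : {u : (fixedF σ)ˣ // Cfsg.Agent.Lib.HermCount.nrm q₀ ((u : fixedF σ)) = 1},
        Units.map ((fixedF σ).subtype : fixedF σ →* F) u.1 ∈ U := by
      rintro ⟨u, hu⟩
      rw [hU, mem_detGU_range hF hn1]
      change ((u : fixedF σ) : F) * ((u : fixedF σ) : F) ^ q = 1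
      rw [pow_q_of_fixed hcard hqq hodd (u : fixedF σ).2]
      exact congrArg Subtype.val hu
    apply Nat.card_eq_of_bijective (fun u : {u : (fixedF σ)ˣ // Cfsg.Agent.Lib.HermCount.nrm q₀ ((u : fixedF σ)) = 1} =>
      (⟨⟨Units.map ((fixedF σ).subtype : fixedF σ →* F) u.1, hmem u⟩, (u.1 : fixedF σ).2⟩ : T))
    constructor
    · intro a b hab
      have h1 := congrArg (fun t : T => ((t.1 : Fˣ) : F)) hab
      exact Subtype.ext (Units.ext (Subtype.ext h1))
    · rintro ⟨⟨t, ht⟩, ht'⟩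
      have ht2 : (t : F) * (t : F) ^ q = 1 := (mem_detGU_range hF hn1 t).1 ht
      have ht0 : (⟨(t : F), ht'⟩ : fixedF σ) ≠ 0 := fun h0 => t.ne_zero (congrArg Subtype.val h0)
      refine ⟨⟨Units.mk0 _ ht0, ?_⟩, ?_⟩
      · apply Subtype.ext
        change (t : F) * (t : F) ^ q₀ = 1
        rw [← pow_q_of_fixed hcard hqq hodd ht']
        exact ht2
      · apply Subtype.ext
        apply Subtype.ext
        apply Units.ext
        rfl
  set S : Subgroup U := (powMonoidHom n : U →* U).range ⊔ T with hS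
  let D : GU n F q →* U ⧸ S := (QuotientGroup.mk' S).comp dd
  have hD : Function.Surjective D := (QuotientGroup.mk'_surjective S).comp hdd
  have hK : Inn (PSU n F q) ≤ (inHomU n F q).range := by
    rintro _ ⟨x, rfl⟩
    obtain ⟨s, rfl⟩ := piT_surj x
    exact ⟨⟨suGL s, suGL_mem s⟩, semiAut_suGL s⟩
  have hnorm : ∀ k ∈ Inn (PSU n F q), ∀ g, inHomU n F q g * k * (inHomU n F q g)⁻¹ ∈ Inn (PSU n F q) := by
    rintro _ ⟨a, rfl⟩ g
    refine ⟨inHomU n F q g a, ?_⟩
    ext x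
    simp [MulAut.conj_apply, MulAut.inv_def, MulAut.mul_apply]
  have hker : ∀ g, D g = 1 ↔ ∃ k u, inHomU n F q k ∈ Inn (PSU n F q) ∧ Commute (inHomU n F q u) (faU n F q σ) ∧ g = k * u := by
    intro g
    have h3 : D g = 1 ↔ dd g ∈ S := by
      change (QuotientGroup.mk (dd g) : U ⧸ S) = 1 ↔ _
      exact QuotientGroup.eq_one_iff _
    rw [h3, hS, Subgroup.mem_sup]
    constructor
    · rintro ⟨_, ⟨a, rfl⟩, t, ht, he⟩
      have ht1 : ((t : Fˣ) : F) * ((t : Fˣ) : F) ^ q = 1 := (mem_detGU_range hF hn1 _).1 t.2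
      have ha1 : ((a : Fˣ) : F) * ((a : Fˣ) : F) ^ q = 1 := (mem_detGU_range hF hn1 _).1 a.2
      let u : GU n F q := ⟨dg ⟨0, hn1⟩ (t : Fˣ), dg_mem _ ht1⟩
      have hufix : glMap σ u.1 = u.1 := by
        change glMap σ (dg ⟨0, hn1⟩ (t : Fˣ)) = dg ⟨0, hn1⟩ (t : Fˣ)
        rw [glMap_dg]
        congr 1
        apply Units.ext
        exact ht
      have hdu : dd u = t := by
        apply Subtype.ext
        exact dg_det _ _
      refine ⟨g * u⁻¹, u, ?_, commute_of_fixed hufix, by group⟩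
      apply inHomU_mem_Inn_of_det ha1
      have h5 : dd (g * u⁻¹) = a ^ n := by
        rw [map_mul, map_inv, hdu, ← he]
        simp
      exact congrArg Subtype.val h5
    · rintro ⟨k, u, hk, hu, rfl⟩
      obtain ⟨a, ha1, hak⟩ := det_of_inHomU_mem_Inn (p := p) hF hn hk
      obtain ⟨d, hd1, hdfix⟩ := exists_fixed_unitary (p := p) hF hn hodd hu
      let a' : U := ⟨a, (mem_detGU_range hF hn1 _).2 ha1⟩
      let d' : U := ⟨d, (mem_detGU_range hF hn1 _).2 hd1⟩
      let w : GU n F q := ⟨Matrix.GeneralLinearGroup.scalar (Fin n) d * u.1, smulGL_mem hd1 u.2⟩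
      have hw : dd w = d' ^ n * dd u := by
        apply Subtype.ext
        change Matrix.GeneralLinearGroup.det (Matrix.GeneralLinearGroup.scalar (Fin n) d * u.1) = d ^ n * detGU n F q u
        rw [map_mul, Matrix.GeneralLinearGroup.det_scalar, Fintype.card_fin]
        rfl
      have hk' : dd k = a' ^ n := Subtype.ext hak
      have hwT : dd w ∈ T := by
        rw [hT]
        change σ (w.1 : Matrix (Fin n) (Fin n) F).det = (w.1 : Matrix (Fin n) (Fin n) F).det
        have h6 : ((w.1 : Matrix (Fin n) (Fin n) F).map σ).det = σ (w.1 : Matrix (Fin n) (Fin n) F).det :=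
          (RingHom.map_det (σ : F →+* F) _).symm
        rw [← h6]
        have h7 := congrArg (fun g : GL (Fin n) F => (g : Matrix (Fin n) (Fin n) F).det) hdfix
        exact h7
      refine ⟨(a' * d'⁻¹) ^ n, ⟨a' * d'⁻¹, rfl⟩, dd w, hwT, ?_⟩
      rw [hw, map_mul, hk', mul_pow, inv_pow, mul_assoc, inv_mul_cancel_left]
  have h4 := Cfsg.Agent.Lib.AutPSL.split_count (inHomU n F q) (Inn (PSU n F q)) (faU n F q σ) hK hnorm D hD hker
  rw [← inndiag_eq_range] at h4
  rw [h4, hS, Cfsg.Agent.Lib.AutPSL.card_quot_pow_sup, hTcard, hU, detGU_range_card hF hn1]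

end Cfsg.Agent.Lib.AutPSU
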