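import Cfsg.Agent.Lib.AutPSU.FieldSplitU
import Cfsg.Agent.Lib.AutPSL.GraphCard

/-!
# Involutory graph automorphisms of `PSU_n(q)`: the bridge to `PSL_n(q)`

For `g` unitary with `ν g = P τ(P)⁻¹` and `P^* P = l B` with `B` over the subfield with `q` elements, the automorphism
`semiAut g τ` of `PSU_n(q)` corresponds to the graph automorphism `gr B⁻¹` of `PSL_n(q)`.
-/

set_option autoImplicit false
set_option linter.unusedSectionVars false
set_option linter.unusedSimpArgs false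
set_option linter.unusedVariables false
set_option linter.style.haveILetI false

namespace Cfsg.Agent.Lib.AutPSU.GB

open Module Matrix Cfsg
open Cfsg.Agent.Lib.Hilbert90
open Cfsg.Agent.Lib.AutPSL (glMap glMap_coe nrm nrm_succ nrm_succ' glMap_scalar scalar_coe invT invT_coe invT_inv_coe gr dl)
open scoped MatrixGroups

variable {F : Type*} [Field F] [Fintype F] {q n : ℕ}
variable {F₀ : Type*} [Field F₀] [Fintype F₀]

/-- The conjugate transpose. -/
noncomputable def cj (hF : Fintype.card F = q ^ 2) (M : Matrix (Fin n) (Fin n) F) : Matrix (Fin n) (Fin n) F :=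
  (M.map (tauE hF))ᵀ

section CJ

variable (hF : Fintype.card F = q ^ 2)

theorem cj_mul (M N : Matrix (Fin n) (Fin n) F) : cj hF (M * N) = cj hF N * cj hF M := by
  rw [cj, cj, cj, Matrix.map_mul, Matrix.transpose_mul]

theorem cj_smul (c : F) (M : Matrix (Fin n) (Fin n) F) : cj hF (c • M) = tauE hF c • cj hF M := by
  ext i j
  simp [cj]

theorem map_map_tau (M : Matrix (Fin n) (Fin n) F) : (M.map (tauE hF)).map (tauE hF) = M := by
  ext i j
  exact tauE_tauE hF _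

theorem cj_cj (M : Matrix (Fin n) (Fin n) F) : cj hF (cj hF M) = M := by
  ext i j
  simp [cj, tauE_tauE]

theorem cj_one : cj hF (1 : Matrix (Fin n) (Fin n) F) = 1 := by
  ext i j
  simp [cj, Matrix.one_apply, apply_ite, eq_comm]

theorem cj_inv_mul (P : GL (Fin n) F) :
    cj hF ((P⁻¹ : GL (Fin n) F) : Matrix (Fin n) (Fin n) F) * cj hF (P : Matrix (Fin n) (Fin n) F) = 1 := by
  rw [← cj_mul, ← Units.val_mul, mul_inv_cancel, Units.val_one, cj_one]

theorem cj_mul_inv (P : GL (Fin n) F) :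
    cj hF (P : Matrix (Fin n) (Fin n) F) * cj hF ((P⁻¹ : GL (Fin n) F) : Matrix (Fin n) (Fin n) F) = 1 := by
  rw [← cj_mul, ← Units.val_mul, inv_mul_cancel, Units.val_one, cj_one]

theorem mem_GU_iff {g : GL (Fin n) F} :
    g ∈ GU n F q ↔ cj hF (g : Matrix (Fin n) (Fin n) F) * (g : Matrix (Fin n) (Fin n) F) = 1 := by
  have key : ∀ M : Matrix (Fin n) (Fin n) F, Mᵀ * M.map (tauE hF) = 1 ↔ cj hF M * M = 1 := by
    intro M
    have h1 : (Mᵀ * M.map (tauE hF)).map (tauE hF) = cj hF M * M := by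
      rw [Matrix.map_mul, map_map_tau, Matrix.transpose_map]
      rfl
    constructor
    · intro h
      rw [← h1, h, ← cj_one hF, cj, Matrix.map_one _ (map_zero _) (map_one _)]
      simp [cj, Matrix.map_one _ (map_zero _) (map_one _)]
    · intro h
      have h2 : (Mᵀ * M.map (tauE hF)) = (cj hF M * M).map (tauE hF) := by
        rw [← h1, map_map_tau]
      rw [h2, h]
      exact Matrix.map_one _ (map_zero _) (map_one _)
  constructor
  · intro h
    exact (key _).1 (tr_mul_tau_of_mem hF h)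
  · intro h
    exact mem_of_tr_mul_tau hF ((key _).2 h)

end CJ

/-- `ι` identifies `F₀` with the fixed field of `τ`. -/
structure Emb (hF : Fintype.card F = q ^ 2) (ι : F₀ →+* F) : Prop where
  fix : ∀ x, tauE hF (ι x) = ι x
  surj : ∀ y, tauE hF y = y → ∃ x, ι x = y

theorem exists_emb (hF : Fintype.card F = q ^ 2) (hF₀ : Fintype.card F₀ = q) :
    ∃ ι : F₀ →+* F, Emb hF ι := by
  classical
  haveI : Fintype (fixedF (tauE hF)) := Fintype.ofFinite _
  have h1 := card_eq_card_fixedF_pow (tauE hF) (orderOf_tauE hF)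
  have h2 : Nat.card (fixedF (tauE hF)) = q := by
    rw [Nat.card_eq_fintype_card, hF] at h1
    exact (Nat.pow_left_injective (n := 2) (by omega) h1).symm
  have hc : Fintype.card F₀ = Fintype.card (fixedF (tauE hF)) := by
    exact hF₀.trans (h2.symm.trans Nat.card_eq_fintype_card)
  let e₀ : F₀ ≃+* fixedF (tauE hF) := FiniteField.ringEquivOfCardEq hc
  refine ⟨(fixedF (tauE hF)).subtype.comp e₀.toRingHom, ?_, ?_⟩
  · intro x
    exact (e₀ x).2
  · intro y hy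
    refine ⟨e₀.symm ⟨y, hy⟩, ?_⟩
    change ((e₀ (e₀.symm ⟨y, hy⟩) : fixedF (tauE hF)) : F) = y
    simp

section Emb

variable {hF : Fintype.card F = q ^ 2} {ι : F₀ →+* F}

theorem Emb.map_fix (h : Emb hF ι) (M : Matrix (Fin n) (Fin n) F₀) : (M.map ι).map (tauE hF) = M.map ι := by
  ext i j
  exact h.fix _

theorem Emb.cj_map (h : Emb hF ι) (M : Matrix (Fin n) (Fin n) F₀) : cj hF (M.map ι) = (Mᵀ).map ι := by
  rw [cj, h.map_fix]
  rfl

/-- Matrices fixed by `τ` come from `F₀`. -/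
theorem Emb.exists_matrix (h : Emb hF ι) (M : Matrix (Fin n) (Fin n) F) (hM : M.map (tauE hF) = M) :
    ∃ M₀ : Matrix (Fin n) (Fin n) F₀, M₀.map ι = M := by
  have h1 : ∀ i j, ∃ x, ι x = M i j := fun i j => h.surj _ (congrFun (congrFun hM i) j)
  choose M₀ hM₀ using h1
  exact ⟨Matrix.of M₀, by
    ext i j
    exact hM₀ i j⟩

theorem Emb.exists_GL (h : Emb hF ι) (M : Matrix (Fin n) (Fin n) F) (hM : M.map (tauE hF) = M) (hdet : M.det ≠ 0) :
    ∃ w : GL (Fin n) F₀, (w : Matrix (Fin n) (Fin n) F₀).map ι = M := by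
  obtain ⟨M₀, rfl⟩ := h.exists_matrix M hM
  have h1 : M₀.det ≠ 0 := by
    intro h0
    apply hdet
    have h2 : (M₀.map ι).det = ι M₀.det := (RingHom.map_det ι M₀).symm
    rw [h2, h0, map_zero]
  exact ⟨Matrix.GeneralLinearGroup.mkOfDetNeZero M₀ h1, rfl⟩

end Emb

/-! ### Field facts -/

theorem exists_sign_elt (hF : Fintype.card F = q ^ 2) {μ : F} (hμ : μ = 1 ∨ μ = -1) :
    ∃ l : F, l ≠ 0 ∧ tauE hF l = μ * l := by
  rcases hμ with rfl | rfl
  · exact ⟨1, one_ne_zero, by simp⟩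
  · have h1 : ∃ x, tauE hF x ≠ x := by
      by_contra hcon
      push Not at hcon
      apply tauE_ne_one hF
      ext x
      exact hcon x
    obtain ⟨x, hx⟩ := h1
    refine ⟨x - tauE hF x, sub_ne_zero.2 (Ne.symm hx), ?_⟩
    rw [map_sub, tauE_tauE]
    ring

theorem exists_norm_of_fixed (hF : Fintype.card F = q ^ 2) {t : F} (ht0 : t ≠ 0) (ht : tauE hF t = t) :
    ∃ E : F, E ≠ 0 ∧ E * tauE hF E = t := by
  obtain ⟨d, hd, hdn⟩ := Cfsg.Agent.Lib.AutPSL.exists_norm_eq (tauE hF) (by omega) (orderOf_tauE hF) ht0 ht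
  refine ⟨d, hd, ?_⟩
  simpa [pnorm, Finset.prod_range_succ] using hdn

theorem tau_sign (hF : Fintype.card F = q ^ 2) {μ : F} (hμ : μ = 1 ∨ μ = -1) : tauE hF μ = μ := by
  rcases hμ with rfl | rfl <;> simp

theorem sign_sq {μ : F} (hμ : μ = 1 ∨ μ = -1) : μ * μ = 1 := by
  rcases hμ with rfl | rfl <;> simp

theorem sign_ne {μ : F} (hμ : μ = 1 ∨ μ = -1) : μ ≠ 0 := by
  rcases hμ with rfl | rfl <;> simp

/-- `σ` of order dividing two, not trivial, is `τ`. -/
theorem eq_tauE_of_sq (hF : Fintype.card F = q ^ 2) {σ : F ≃+* F} (h2 : σ ^ 2 = 1) (h1 : σ ≠ 1) : σ = tauE hF := by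
  haveI : Fact (Nat.Prime 2) := ⟨Nat.prime_two⟩
  have ho : orderOf σ = 2 := orderOf_eq_prime h2 h1
  have hc1 := card_eq_card_fixedF_pow σ ho
  have hc2 := card_eq_card_fixedF_pow (tauE hF) (orderOf_tauE hF)
  have hc3 : Nat.card (fixedF σ) = q := by
    rw [Nat.card_eq_fintype_card, hF] at hc1
    exact (Nat.pow_left_injective (n := 2) (by omega) hc1).symm
  have hc4 : Nat.card (fixedF (tauE hF)) = q := by
    rw [Nat.card_eq_fintype_card, hF] at hc2
    exact (Nat.pow_left_injective (n := 2) (by omega) hc2).symm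
  have hσσ : ∀ x, σ (σ x) = x := fun x => by
    have := DFunLike.congr_fun h2 x
    rwa [pow_two] at this
  -- the elements fixed by `σ` are fixed by `τ`
  have hfix : ∀ x, σ x = x → tauE hF x = x := by
    intro x hx
    classical
    haveI : Fintype (fixedF σ) := Fintype.ofFinite _
    have h3 : (⟨x, hx⟩ : fixedF σ) ^ Fintype.card (fixedF σ) = ⟨x, hx⟩ := FiniteField.pow_card _
    rw [← Nat.card_eq_fintype_card, hc3] at h3
    exact congrArg Subtype.val h3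
  have hfix' : ∀ x, tauE hF x = x → σ x = x := by
    classical
    haveI : Finite (fixedF (tauE hF)) := inferInstance
    let f : fixedF σ → fixedF (tauE hF) := fun x => ⟨x.1, hfix x.1 x.2⟩
    have hf : Function.Injective f := fun a b hab => by
      have h5 : (f a).1 = (f b).1 := congrArg Subtype.val hab
      exact Subtype.ext h5
    have hb : Function.Bijective f := (Nat.bijective_iff_injective_and_card f).2 ⟨hf, by rw [hc3, hc4]⟩
    intro x hx
    obtain ⟨y, hy⟩ := hb.2 ⟨x, hx⟩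
    have h3 : y.1 = x := congrArg Subtype.val hy
    rw [← h3]
    exact y.2
  ext x
  have ha : tauE hF (x + σ x) = x + σ x := hfix _ (by rw [map_add, hσσ, add_comm])
  have hb : tauE hF (x * σ x) = x * σ x := hfix _ (by rw [map_mul, hσσ, mul_comm])
  have h3 : (tauE hF x - x) * (tauE hF x - σ x) = 0 := by
    have h4 : tauE hF (x * x - (x + σ x) * x + x * σ x) = 0 := by
      have : x * x - (x + σ x) * x + x * σ x = 0 := by ring
      rw [this, map_zero]
    rw [map_add, map_sub, map_mul, map_mul, ha, hb] at h4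
    linear_combination h4
  rcases mul_eq_zero.1 h3 with h4 | h4
  · have h5 := sub_eq_zero.1 h4
    rw [h5]
    exact hfix' x h5
  · exact (sub_eq_zero.1 h4).symm

/-! ### The relation -/

variable (hF : Fintype.card F = q ^ 2) (ι : F₀ →+* F)

/-- The relation between a unitary `g` with `g τ(g)` scalar and a non-degenerate form `B` over `F₀`. -/
def IsRep (g : GL (Fin n) F) (B : GL (Fin n) F₀) : Prop :=
  ∃ (P : GL (Fin n) F) (ν l : Fˣ), Matrix.GeneralLinearGroup.scalar (Fin n) ν * g = P * glMap (tauE hF) P⁻¹ ∧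
    cj hF (P : Matrix (Fin n) (Fin n) F) * (P : Matrix (Fin n) (Fin n) F) = (l : F) • (B : Matrix (Fin n) (Fin n) F₀).map ι

variable {hF ι}

local notation "sc" => Matrix.GeneralLinearGroup.scalar (Fin n)

/-- The matrix `P' ι(w) P⁻¹`. -/
noncomputable def cmp (ι : F₀ →+* F) (P P' : GL (Fin n) F) (w : GL (Fin n) F₀) : GL (Fin n) F :=
  P' * Matrix.GeneralLinearGroup.map ι w * P⁻¹

theorem cmp_coe (P P' : GL (Fin n) F) (w : GL (Fin n) F₀) :
    ((cmp ι P P' w : GL (Fin n) F) : Matrix (Fin n) (Fin n) F) =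
      (P' : Matrix (Fin n) (Fin n) F) * (w : Matrix (Fin n) (Fin n) F₀).map ι * ((P⁻¹ : GL (Fin n) F) : Matrix (Fin n) (Fin n) F) := rfl

theorem cj_cmp_mid (hι : Emb hF ι) {P P' : GL (Fin n) F} (w : GL (Fin n) F₀) {B' : GL (Fin n) F₀} {l' : F}
    (hP' : cj hF (P' : Matrix (Fin n) (Fin n) F) * (P' : Matrix (Fin n) (Fin n) F) = l' • (B' : Matrix (Fin n) (Fin n) F₀).map ι) :
    cj hF (cmp ι P P' w : Matrix (Fin n) (Fin n) F) * (cmp ι P P' w : Matrix (Fin n) (Fin n) F) =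
      l' • (cj hF ((P⁻¹ : GL (Fin n) F) : Matrix (Fin n) (Fin n) F) *
        (((w : Matrix (Fin n) (Fin n) F₀)ᵀ * B' * w).map ι) * ((P⁻¹ : GL (Fin n) F) : Matrix (Fin n) (Fin n) F)) := by
  rw [cmp_coe, cj_mul, cj_mul, hι.cj_map]
  set pi := ((P⁻¹ : GL (Fin n) F) : Matrix (Fin n) (Fin n) F) with hpi
  set W := (w : Matrix (Fin n) (Fin n) F₀) with hW
  set p' := (P' : Matrix (Fin n) (Fin n) F) with hp'
  calc cj hF pi * ((Wᵀ).map ι * cj hF p') * (p' * W.map ι * pi)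
      = cj hF pi * (Wᵀ).map ι * (cj hF p' * p') * W.map ι * pi := by
        simp only [Matrix.mul_assoc]
    _ = cj hF pi * (Wᵀ).map ι * (l' • (B' : Matrix (Fin n) (Fin n) F₀).map ι) * W.map ι * pi := by rw [hP']
    _ = l' • (cj hF pi * ((Wᵀ).map ι * (B' : Matrix (Fin n) (Fin n) F₀).map ι * W.map ι) * pi) := by
        simp only [Matrix.mul_smul, Matrix.smul_mul, Matrix.mul_assoc]
    _ = _ := by rw [Matrix.map_mul, Matrix.map_mul]

theorem mid_B {P : GL (Fin n) F} {B : GL (Fin n) F₀} {l : F} (hl : l ≠ 0)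
    (hP : cj hF (P : Matrix (Fin n) (Fin n) F) * (P : Matrix (Fin n) (Fin n) F) = l • (B : Matrix (Fin n) (Fin n) F₀).map ι) :
    cj hF ((P⁻¹ : GL (Fin n) F) : Matrix (Fin n) (Fin n) F) * (B : Matrix (Fin n) (Fin n) F₀).map ι *
      ((P⁻¹ : GL (Fin n) F) : Matrix (Fin n) (Fin n) F) = l⁻¹ • 1 := by
  have h1 : (B : Matrix (Fin n) (Fin n) F₀).map ι = l⁻¹ • (cj hF (P : Matrix (Fin n) (Fin n) F) * (P : Matrix (Fin n) (Fin n) F)) := by
    rw [hP, smul_smul, inv_mul_cancel₀ hl, one_smul]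
  rw [h1, Matrix.mul_smul, Matrix.smul_mul]
  congr 1
  calc cj hF ((P⁻¹ : GL (Fin n) F) : Matrix (Fin n) (Fin n) F) * (cj hF (P : Matrix (Fin n) (Fin n) F) * (P : Matrix (Fin n) (Fin n) F)) * ((P⁻¹ : GL (Fin n) F) : Matrix (Fin n) (Fin n) F)
      = (cj hF ((P⁻¹ : GL (Fin n) F) : Matrix (Fin n) (Fin n) F) * cj hF (P : Matrix (Fin n) (Fin n) F)) * ((P : Matrix (Fin n) (Fin n) F) * ((P⁻¹ : GL (Fin n) F) : Matrix (Fin n) (Fin n) F)) := by
        simp only [Matrix.mul_assoc]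
    _ = 1 := by
        rw [cj_inv_mul, ← Units.val_mul, mul_inv_cancel, Units.val_one, Matrix.one_mul]

theorem cj_cmp (hι : Emb hF ι) {P P' : GL (Fin n) F} {w B B' : GL (Fin n) F₀} {l l' : F} {c : F₀} (hl : l ≠ 0)
    (hP : cj hF (P : Matrix (Fin n) (Fin n) F) * (P : Matrix (Fin n) (Fin n) F) = l • (B : Matrix (Fin n) (Fin n) F₀).map ι)
    (hP' : cj hF (P' : Matrix (Fin n) (Fin n) F) * (P' : Matrix (Fin n) (Fin n) F) = l' • (B' : Matrix (Fin n) (Fin n) F₀).map ι)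
    (h : (w : Matrix (Fin n) (Fin n) F₀)ᵀ * B' * w = c • (B : Matrix (Fin n) (Fin n) F₀)) :
    cj hF (cmp ι P P' w : Matrix (Fin n) (Fin n) F) * (cmp ι P P' w : Matrix (Fin n) (Fin n) F) =
      (l' * ι c * l⁻¹) • 1 := by
  rw [cj_cmp_mid hι w hP', h]
  have h1 : (c • (B : Matrix (Fin n) (Fin n) F₀)).map ι = ι c • (B : Matrix (Fin n) (Fin n) F₀).map ι := by
    ext i j
    simp
  rw [h1, Matrix.mul_smul, Matrix.smul_mul, mid_B hl hP, smul_smul, smul_smul]

/-- A unitary multiple of `P' ι(w) P⁻¹`. -/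
theorem exists_unitary (hn : 1 ≤ n) (hι : Emb hF ι) {P P' : GL (Fin n) F} {w B B' : GL (Fin n) F₀} {l l' : Fˣ} {c : F₀ˣ}
    (hP : cj hF (P : Matrix (Fin n) (Fin n) F) * (P : Matrix (Fin n) (Fin n) F) = (l : F) • (B : Matrix (Fin n) (Fin n) F₀).map ι)
    (hP' : cj hF (P' : Matrix (Fin n) (Fin n) F) * (P' : Matrix (Fin n) (Fin n) F) = (l' : F) • (B' : Matrix (Fin n) (Fin n) F₀).map ι)
    (h : (w : Matrix (Fin n) (Fin n) F₀)ᵀ * B' * w = (c : F₀) • (B : Matrix (Fin n) (Fin n) F₀)) :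
    ∃ x : Fˣ, sc x * cmp ι P P' w ∈ GU n F q := by
  have hc := cj_cmp hι l.ne_zero hP hP' h
  set y : F := (l' : F) * ι (c : F₀) * (l : F)⁻¹ with hy
  have hc0 : ι (c : F₀) ≠ 0 := (map_ne_zero ι).2 c.ne_zero
  have hy0 : y ≠ 0 := mul_ne_zero (mul_ne_zero l'.ne_zero hc0) (inv_ne_zero l.ne_zero)
  have hτy : tauE hF y = y := by
    have h1 := congrArg (cj hF) hc
    rw [cj_mul, cj_cj, hc, cj_smul, cj_one] at h1
    have h2 := congrFun (congrFun h1 ⟨0, hn⟩) ⟨0, hn⟩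
    simp only [Matrix.smul_apply, Matrix.one_apply_eq, smul_eq_mul, mul_one] at h2
    exact h2.symm
  obtain ⟨E, hE0, hE⟩ := exists_norm_of_fixed hF (inv_ne_zero hy0) (by rw [map_inv₀, hτy])
  refine ⟨Units.mk0 E hE0, (mem_GU_iff hF).2 ?_⟩
  rw [Cfsg.Agent.Lib.AutPSU.smulGL_val, cj_smul, Units.val_mk0, Matrix.smul_mul, Matrix.mul_smul, hc, smul_smul, smul_smul]
  have h3 : tauE hF E * E * y = 1 := by
    have : tauE hF E * E = y⁻¹ := by rw [mul_comm]; exact hE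
    rw [this, inv_mul_cancel₀ hy0]
  rw [h3, one_smul]

/-- From a unitary multiple of `P' ι(w) P⁻¹` to a similarity. -/
theorem sim_of_unitary (hn : 1 ≤ n) (hι : Emb hF ι) {P P' : GL (Fin n) F} {w B B' : GL (Fin n) F₀} {l l' x : Fˣ}
    (hP : cj hF (P : Matrix (Fin n) (Fin n) F) * (P : Matrix (Fin n) (Fin n) F) = (l : F) • (B : Matrix (Fin n) (Fin n) F₀).map ι)
    (hP' : cj hF (P' : Matrix (Fin n) (Fin n) F) * (P' : Matrix (Fin n) (Fin n) F) = (l' : F) • (B' : Matrix (Fin n) (Fin n) F₀).map ι)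
    (hu : sc x * cmp ι P P' w ∈ GU n F q) :
    ∃ c : F₀ˣ, (w : Matrix (Fin n) (Fin n) F₀)ᵀ * B' * w = (c : F₀) • (B : Matrix (Fin n) (Fin n) F₀) := by
  have h0 := (mem_GU_iff hF).1 hu
  rw [Cfsg.Agent.Lib.AutPSU.smulGL_val, cj_smul, Matrix.smul_mul, Matrix.mul_smul, cj_cmp_mid hι w hP', smul_smul, smul_smul] at h0
  set K := (w : Matrix (Fin n) (Fin n) F₀)ᵀ * B' * w with hK
  set p := (P : Matrix (Fin n) (Fin n) F) with hp
  set pi := ((P⁻¹ : GL (Fin n) F) : Matrix (Fin n) (Fin n) F) with hpi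
  set y : F := tauE hF (x : F) * (x : F) * (l' : F) with hy
  have hτx : tauE hF (x : F) ≠ 0 := (map_ne_zero _).2 x.ne_zero
  have hy0 : y ≠ 0 := mul_ne_zero (mul_ne_zero hτx x.ne_zero) l'.ne_zero
  -- multiply out
  have h1 : y • K.map ι = (l : F) • (B : Matrix (Fin n) (Fin n) F₀).map ι := by
    rw [← hP]
    calc y • K.map ι = cj hF p * (y • (cj hF pi * K.map ι * pi)) * p := by
          rw [Matrix.mul_smul, Matrix.smul_mul]
          congr 1
          have h3 : pi * p = 1 := by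
            rw [hp, hpi, ← Units.val_mul, inv_mul_cancel, Units.val_one]
          calc K.map ι = (cj hF p * cj hF pi) * K.map ι * (pi * p) := by
                rw [hp, hpi, cj_mul_inv, h3, Matrix.one_mul, Matrix.mul_one]
            _ = _ := by simp only [Matrix.mul_assoc]
      _ = cj hF p * p := by rw [h0, Matrix.mul_one]
  set ρ : F := y⁻¹ * (l : F) with hρ
  have hρ0 : ρ ≠ 0 := mul_ne_zero (inv_ne_zero hy0) l.ne_zero
  have h2 : K.map ι = ρ • (B : Matrix (Fin n) (Fin n) F₀).map ι := by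
    rw [hρ, mul_smul, ← h1, smul_smul, inv_mul_cancel₀ hy0, one_smul]
  obtain ⟨i, j, hij⟩ := Cfsg.Agent.Lib.Hilbert90.exists_entry_ne_zero hn B
  have h3 : ι (K i j) = ρ * ι ((B : Matrix (Fin n) (Fin n) F₀) i j) := congrFun (congrFun h2 i) j
  set z : F₀ := K i j / (B : Matrix (Fin n) (Fin n) F₀) i j with hz
  have hιB : ι ((B : Matrix (Fin n) (Fin n) F₀) i j) ≠ 0 := (map_ne_zero ι).2 hij
  have hρz : ι z = ρ := by
    rw [hz, map_div₀, h3]
    field_simp
  have hz0 : z ≠ 0 := by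
    intro h0
    rw [h0, map_zero] at hρz
    exact hρ0 hρz.symm
  refine ⟨Units.mk0 z hz0, ?_⟩
  ext a b
  apply ι.injective
  have h4 : ι (K a b) = ρ * ι ((B : Matrix (Fin n) (Fin n) F₀) a b) := congrFun (congrFun h2 a) b
  rw [h4, Units.val_mk0, Matrix.smul_apply, smul_eq_mul, map_mul, hρz]

/-! ### Conjugation -/

theorem key_conj {G : Type*} [Group G] {a b d : G} (hb : ∀ y, b * y = y * b) (hd : ∀ y, d * y = y * d) (P P' W Q Q' : G) :
    (a * (P' * W * P⁻¹)) * (b * (P * Q⁻¹)) * (Q * W⁻¹ * Q'⁻¹ * d) = a * b * d * (P' * Q'⁻¹) := by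
  calc (a * (P' * W * P⁻¹)) * (b * (P * Q⁻¹)) * (Q * W⁻¹ * Q'⁻¹ * d)
      = a * ((P' * W * P⁻¹) * b) * (P * Q⁻¹) * (Q * W⁻¹ * Q'⁻¹ * d) := by group
    _ = a * (b * (P' * W * P⁻¹)) * (P * Q⁻¹) * (Q * W⁻¹ * Q'⁻¹ * d) := by rw [hb]
    _ = a * b * (P' * Q'⁻¹ * d) := by group
    _ = a * b * (d * (P' * Q'⁻¹)) := by rw [hd]
    _ = _ := by group

theorem scalar_central (c : Fˣ) (y : GL (Fin n) F) : sc c * y = y * sc c := by
  have h : (sc c : GL (Fin n) F) ∈ Subgroup.center (GL (Fin n) F) := by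
    rw [Matrix.GeneralLinearGroup.center_eq_range_scalar]
    exact ⟨c, rfl⟩
  exact (Subgroup.mem_center_iff.mp h y).symm

theorem sc_mul (a b : Fˣ) : (sc (a * b) : GL (Fin n) F) = sc a * sc b := map_mul _ a b

theorem sc_inv (a : Fˣ) : (sc a⁻¹ : GL (Fin n) F) = (sc a)⁻¹ := map_inv _ a

/-- The unit `τ x`. -/
noncomputable def tu (hF : Fintype.card F = q ^ 2) (x : Fˣ) : Fˣ := Units.map ((tauE hF : F ≃+* F) : F →* F) x

theorem tu_val (x : Fˣ) : ((tu hF x : Fˣ) : F) = tauE hF (x : F) := rfl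

theorem T_sc (x : Fˣ) : glMap (tauE hF) (sc x) = sc (tu hF x) := glMap_scalar _ _

theorem T_T (y : GL (Fin n) F) : glMap (tauE hF) (glMap (tauE hF) y) = y := by
  apply Units.ext
  rw [glMap_coe, glMap_coe]
  exact map_map_tau hF _

theorem T_map (hι : Emb hF ι) (w : GL (Fin n) F₀) :
    glMap (tauE hF) (Matrix.GeneralLinearGroup.map ι w) = Matrix.GeneralLinearGroup.map ι w := by
  apply Units.ext
  rw [glMap_coe]
  exact hι.map_fix _

theorem eq_of_rep {g P : GL (Fin n) F} {ν : Fˣ} (hg : sc ν * g = P * glMap (tauE hF) P⁻¹) :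
    g = sc ν⁻¹ * (P * (glMap (tauE hF) P)⁻¹) := by
  rw [← map_inv, ← hg, sc_inv, inv_mul_cancel_left]

/-- The computation of the conjugate. -/
theorem conj_cmp (hι : Emb hF ι) {g g' P P' : GL (Fin n) F} {ν ν' x : Fˣ} (w : GL (Fin n) F₀)
    (hg : sc ν * g = P * glMap (tauE hF) P⁻¹) (hg' : sc ν' * g' = P' * glMap (tauE hF) P'⁻¹) :
    (sc x * cmp ι P P' w) * g * glMap (tauE hF) (sc x * cmp ι P P' w)⁻¹ =
      sc (x * ν⁻¹ * (tu hF x)⁻¹ * ν') * g' := by
  have h1 : glMap (tauE hF) (sc x * cmp ι P P' w)⁻¹ =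
      glMap (tauE hF) P * (Matrix.GeneralLinearGroup.map ι w)⁻¹ * (glMap (tauE hF) P')⁻¹ * sc (tu hF x)⁻¹ := by
    rw [map_inv, map_mul, T_sc, cmp, map_mul, map_mul, T_map hι, map_inv, _root_.mul_inv_rev, _root_.mul_inv_rev, _root_.mul_inv_rev, sc_inv, inv_inv]
    group
  rw [h1, eq_of_rep hg, cmp,
    key_conj (scalar_central _) (scalar_central _) P P' (Matrix.GeneralLinearGroup.map ι w) (glMap (tauE hF) P) (glMap (tauE hF) P')]
  conv_rhs => rw [eq_of_rep hg']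
  simp only [sc_mul, sc_inv]
  calc _ = sc x * (sc ν)⁻¹ * (sc (tu hF x))⁻¹ * (sc ν' * (sc ν')⁻¹) * (P' * (glMap (tauE hF) P')⁻¹) := by
        rw [mul_inv_cancel]
        group
    _ = _ := by group

/-- The converse computation. -/
theorem exists_cmp_of_conj (hn : 1 ≤ n) (hι : Emb hF ι) {g g' P P' u : GL (Fin n) F} {ν ν' μ : Fˣ}
    (hg : sc ν * g = P * glMap (tauE hF) P⁻¹) (hg' : sc ν' * g' = P' * glMap (tauE hF) P'⁻¹)
    (h : g' = sc μ * (u * g * glMap (tauE hF) u⁻¹)) :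
    ∃ (w : GL (Fin n) F₀) (x : Fˣ), u = sc x * cmp ι P P' w := by
  set T := glMap (n := n) (tauE hF) with hT
  set Q := T P with hQ
  set Q' := T P' with hQ'
  set κ : Fˣ := ν * μ⁻¹ * ν'⁻¹ with hκ
  have hmain : u * (P * Q⁻¹) * T u⁻¹ = sc κ * (P' * Q'⁻¹) := by
    have h1 : u * g * T u⁻¹ = sc μ⁻¹ * g' := by
      rw [h, sc_inv, inv_mul_cancel_left]
    have h2 : P * Q⁻¹ = sc ν * g := by
      rw [hg, hQ, map_inv]
    have h3 : P' * Q'⁻¹ = sc ν' * g' := by
      rw [hg', hQ', map_inv]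
    rw [h2, h3, hκ]
    calc u * (sc ν * g) * T u⁻¹ = sc ν * (u * g * T u⁻¹) := by
          rw [← mul_assoc u, ← scalar_central ν u]
          group
      _ = sc ν * (sc μ⁻¹ * g') := by rw [h1]
      _ = _ := by
          simp only [sc_mul, sc_inv]
          group
  set W := P'⁻¹ * u * P with hW
  have hTW : T W = Q'⁻¹ * T u * Q := by
    rw [hW, map_mul, map_mul, map_inv]
  have hWT : W = sc κ * T W := by
    rw [hTW, hW]
    have h4 : u = (sc κ * (P' * Q'⁻¹)) * (T u⁻¹)⁻¹ * (P * Q⁻¹)⁻¹ := by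
      rw [← hmain]
      group
    have h5 : (T u⁻¹)⁻¹ = T u := by rw [map_inv, inv_inv]
    calc P'⁻¹ * u * P = P'⁻¹ * ((sc κ * (P' * Q'⁻¹)) * T u * (P * Q⁻¹)⁻¹) * P := by
          conv_lhs => rw [h4, h5]
      _ = P'⁻¹ * (sc κ * P') * Q'⁻¹ * T u * Q := by group
      _ = P'⁻¹ * (P' * sc κ) * Q'⁻¹ * T u * Q := by rw [scalar_central κ P']
      _ = sc κ * (Q'⁻¹ * T u * Q) := by group
  obtain ⟨i, j, hij⟩ := Cfsg.Agent.Lib.Hilbert90.exists_entry_ne_zero hn W
  have hentry : (κ : F) * tauE hF ((W : Matrix (Fin n) (Fin n) F) i j) = (W : Matrix (Fin n) (Fin n) F) i j := by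
    have h6 := congrArg (fun y : GL (Fin n) F => (y : Matrix (Fin n) (Fin n) F) i j) hWT
    simp only [smulGL_val, Matrix.smul_apply, smul_eq_mul] at h6
    exact h6.symm
  set x : Fˣ := Units.mk0 _ hij with hx
  have hxv : (x : F) = (W : Matrix (Fin n) (Fin n) F) i j := rfl
  have hκx : κ * tu hF x = x := by
    apply Units.ext
    rw [Units.val_mul, tu_val, hxv]
    exact hentry
  set W₁ := sc x⁻¹ * W with hW₁
  have hfix : T W₁ = W₁ := by
    have h7 : T W = sc κ⁻¹ * W := by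
      rw [sc_inv, eq_inv_mul_iff_mul_eq]
      exact hWT.symm
    have h8 : tu hF x⁻¹ = (tu hF x)⁻¹ := map_inv _ _
    have h9 : tu hF x⁻¹ * κ⁻¹ = x⁻¹ := by
      calc tu hF x⁻¹ * κ⁻¹ = (tu hF x)⁻¹ * κ⁻¹ := by rw [h8]
        _ = (κ * tu hF x)⁻¹ := (_root_.mul_inv_rev κ (tu hF x)).symm
        _ = x⁻¹ := by rw [hκx]
    rw [hW₁, map_mul, hT, T_sc, ← hT, h7, ← mul_assoc, ← sc_mul, h9]
  have hdetW₁ : (W₁ : Matrix (Fin n) (Fin n) F).det ≠ 0 := (Matrix.GeneralLinearGroup.det W₁).ne_zero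
  obtain ⟨w, hw⟩ := hι.exists_GL (W₁ : Matrix (Fin n) (Fin n) F) (by
    have := congrArg (fun y : GL (Fin n) F => (y : Matrix (Fin n) (Fin n) F)) hfix
    exact this) hdetW₁
  have hw' : Matrix.GeneralLinearGroup.map ι w = W₁ := Units.ext hw
  refine ⟨w, x, ?_⟩
  rw [cmp, hw', hW₁, hW]
  have h9 : sc x * (P' * (sc x⁻¹ * (P'⁻¹ * u * P)) * P⁻¹) = (sc x * sc x⁻¹) * (P' * (P'⁻¹ * u * P) * P⁻¹) := by
    rw [scalar_central x⁻¹ (P'⁻¹ * u * P)]
    simp only [sc_inv]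
    rw [scalar_central (x) (P' * (P'⁻¹ * u * P * (sc x)⁻¹) * P⁻¹)]
    rw [mul_inv_cancel, one_mul]
    have : ∀ y : GL (Fin n) F, (sc x)⁻¹ * y = y * (sc x)⁻¹ := by
      intro y
      rw [← sc_inv]
      exact scalar_central _ _
    rw [← this (P'⁻¹ * u * P)]
    calc _ = P' * ((sc x)⁻¹ * (P'⁻¹ * u * P)) * (P⁻¹ * sc x) := by group
      _ = P' * ((sc x)⁻¹ * (P'⁻¹ * u * P)) * (sc x * P⁻¹) := by rw [scalar_central x P⁻¹]
      _ = P' * ((sc x)⁻¹ * ((P'⁻¹ * u * P) * sc x)) * P⁻¹ := by group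
      _ = P' * ((sc x)⁻¹ * (sc x * (P'⁻¹ * u * P))) * P⁻¹ := by rw [scalar_central x]
      _ = _ := by group
  rw [h9, ← sc_mul, mul_inv_cancel, map_one]
  group

end Cfsg.Agent.Lib.AutPSU.GB
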