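import Cfsg.Agent.Lib.AutPSU.GraphLink

/-!
# Involutory graph automorphisms of `PSU_n(q)`: conjugacy and centralisers via `PSL_n(q)`
-/

set_option autoImplicit false
set_option linter.unusedSectionVars false
set_option linter.unusedSimpArgs false
set_option linter.unusedVariables false
set_option linter.style.haveILetI false

namespace Cfsg.Agent.Lib.AutPSU.GB

open Module Matrix Cfsg
open Cfsg.Agent.Lib.Hilbert90
open Cfsg.Agent.Lib.AutPSL (glMap glMap_coe nrm nrm_succ nrm_succ' glMap_scalar scalar_coe invT invT_coe invT_inv_coe gr dl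
  orderOf_gr_iff exists_of_graphClass isGraphClass_gr sign_of_sym isConj_gr_iff mem_inndiag_iff rG rG_coe graph_cent_equiv gl_mi gl_im)
open scoped MatrixGroups

variable {F : Type*} [Field F] [Fintype F] {q n : ℕ}
variable {F₀ : Type*} [Field F₀] [Fintype F₀]
variable {hF : Fintype.card F = q ^ 2} {ι : F₀ →+* F}

local notation "sc" => Matrix.GeneralLinearGroup.scalar (Fin n)

/-! ### Matrix lemmas over `F₀` -/

theorem exists_scalar_of_map (hn : 1 ≤ n) (K : Matrix (Fin n) (Fin n) F₀) (B : GL (Fin n) F₀) {ρ : F} (hρ0 : ρ ≠ 0)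
    (h : K.map ι = ρ • (B : Matrix (Fin n) (Fin n) F₀).map ι) : ∃ c : F₀ˣ, K = (c : F₀) • (B : Matrix (Fin n) (Fin n) F₀) := by
  obtain ⟨i, j, hij⟩ := Cfsg.Agent.Lib.Hilbert90.exists_entry_ne_zero hn B
  have h3 : ι (K i j) = ρ * ι ((B : Matrix (Fin n) (Fin n) F₀) i j) := congrFun (congrFun h i) j
  set z : F₀ := K i j / (B : Matrix (Fin n) (Fin n) F₀) i j with hz
  have hιB : ι ((B : Matrix (Fin n) (Fin n) F₀) i j) ≠ 0 := (map_ne_zero ι).2 hij
  have hρz : ι z = ρ := by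
    rw [hz, map_div₀, h3]
    field_simp
  have hz0 : z ≠ 0 := by
    intro h0
    rw [h0, map_zero] at hρz
    exact hρ0 hρz.symm
  refine ⟨Units.mk0 z hz0, ?_⟩
  ext a b
  apply ι.injective
  have h4 : ι (K a b) = ρ * ι ((B : Matrix (Fin n) (Fin n) F₀) a b) := congrFun (congrFun h a) b
  rw [h4, Units.val_mk0, Matrix.smul_apply, smul_eq_mul, map_mul, hρz]

theorem scalar_of_map (hn : 1 ≤ n) (w : GL (Fin n) F₀) {κ : F} (hκ : κ ≠ 0)
    (h : (w : Matrix (Fin n) (Fin n) F₀).map ι = κ • 1) : ∃ c : F₀ˣ, (w : Matrix (Fin n) (Fin n) F₀) = (c : F₀) • 1 := by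
  have h1 : (w : Matrix (Fin n) (Fin n) F₀).map ι = κ • ((1 : GL (Fin n) F₀) : Matrix (Fin n) (Fin n) F₀).map ι := by
    rw [h]
    congr 1
    ext i j
    simp [Matrix.one_apply, apply_ite]
  obtain ⟨c, hc⟩ := exists_scalar_of_map hn _ 1 hκ h1
  exact ⟨c, by simpa using hc⟩

/-- Passing between similarity of forms and of the inverses. -/
theorem sim_inv_iff₂ (u A A' : GL (Fin n) F₀) (c : F₀ˣ) :
    (u : Matrix (Fin n) (Fin n) F₀) * ((A⁻¹ : GL (Fin n) F₀) : Matrix (Fin n) (Fin n) F₀) * (u : Matrix (Fin n) (Fin n) F₀)ᵀ =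
        (c : F₀) • ((A'⁻¹ : GL (Fin n) F₀) : Matrix (Fin n) (Fin n) F₀) ↔
      (u : Matrix (Fin n) (Fin n) F₀)ᵀ * (A' : Matrix (Fin n) (Fin n) F₀) * (u : Matrix (Fin n) (Fin n) F₀) =
        (c : F₀) • (A : Matrix (Fin n) (Fin n) F₀) := by
  set U := (u : Matrix (Fin n) (Fin n) F₀) with hU
  set V := ((u⁻¹ : GL (Fin n) F₀) : Matrix (Fin n) (Fin n) F₀) with hV
  set X := ((A⁻¹ : GL (Fin n) F₀) : Matrix (Fin n) (Fin n) F₀) with hX
  set Z := ((A'⁻¹ : GL (Fin n) F₀) : Matrix (Fin n) (Fin n) F₀) with hZ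
  set A₀ := (A : Matrix (Fin n) (Fin n) F₀) with hA₀
  set Y := (A' : Matrix (Fin n) (Fin n) F₀) with hY
  have hUV : U * V = 1 := gl_mi u
  have hVU : V * U = 1 := gl_im u
  have hXA : X * A₀ = 1 := gl_im A
  have hAX : A₀ * X = 1 := gl_mi A
  have hYZ : Y * Z = 1 := gl_mi A'
  have hZY : Z * Y = 1 := gl_im A'
  have hUt : Uᵀ * Vᵀ = 1 := by rw [← Matrix.transpose_mul, hVU, Matrix.transpose_one]
  have hVt : Vᵀ * Uᵀ = 1 := by rw [← Matrix.transpose_mul, hUV, Matrix.transpose_one]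
  constructor
  · intro h
    have h1 : Uᵀ * Y * U * X = (c : F₀) • 1 := by
      calc Uᵀ * Y * U * X = Uᵀ * Y * (U * X * Uᵀ) * Vᵀ := by
            calc Uᵀ * Y * U * X = Uᵀ * Y * U * X * (Uᵀ * Vᵀ) := by rw [hUt, Matrix.mul_one]
              _ = _ := by simp only [Matrix.mul_assoc]
        _ = Uᵀ * Y * ((c : F₀) • Z) * Vᵀ := by rw [h]
        _ = (c : F₀) • (Uᵀ * (Y * Z) * Vᵀ) := by
            simp only [Matrix.mul_smul, Matrix.smul_mul, Matrix.mul_assoc]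
        _ = _ := by rw [hYZ, Matrix.mul_one, hUt]
    calc Uᵀ * Y * U = Uᵀ * Y * U * (X * A₀) := by rw [hXA, Matrix.mul_one]
      _ = (Uᵀ * Y * U * X) * A₀ := by simp only [Matrix.mul_assoc]
      _ = _ := by rw [h1, Matrix.smul_mul, Matrix.one_mul]
  · intro h
    have h1 : U * X * Uᵀ * Y = (c : F₀) • 1 := by
      calc U * X * Uᵀ * Y = U * X * (Uᵀ * Y * U) * V := by
            calc U * X * Uᵀ * Y = U * X * Uᵀ * Y * (U * V) := by rw [hUV, Matrix.mul_one]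
              _ = _ := by simp only [Matrix.mul_assoc]
        _ = U * X * ((c : F₀) • A₀) * V := by rw [h]
        _ = (c : F₀) • (U * (X * A₀) * V) := by
            simp only [Matrix.mul_smul, Matrix.smul_mul, Matrix.mul_assoc]
        _ = _ := by rw [hXA, Matrix.mul_one, hUV]
    calc U * X * Uᵀ = U * X * Uᵀ * (Y * Z) := by rw [hYZ, Matrix.mul_one]
      _ = (U * X * Uᵀ * Y) * Z := by simp only [Matrix.mul_assoc]
      _ = _ := by rw [h1, Matrix.smul_mul, Matrix.one_mul]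

/-- The form attached to a relation is symmetric up to a scalar. -/
theorem form_symm_of_rep (hn : 1 ≤ n) (hι : Emb hF ι) {g : GL (Fin n) F} {B : GL (Fin n) F₀} (hr : IsRep hF ι g B) :
    ∃ c : F₀ˣ, (B : Matrix (Fin n) (Fin n) F₀)ᵀ = (c : F₀) • (B : Matrix (Fin n) (Fin n) F₀) := by
  obtain ⟨P, ν, l, hPg, hP⟩ := hr
  have h1 := congrArg (cj hF) hP
  rw [cj_mul, cj_cj, hP, cj_smul, hι.cj_map] at h1
  have hτl : tauE hF (l : F) ≠ 0 := (map_ne_zero _).2 l.ne_zero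
  apply exists_scalar_of_map (ι := ι) hn _ B (ρ := (tauE hF (l : F))⁻¹ * l) (mul_ne_zero (inv_ne_zero hτl) l.ne_zero)
  rw [mul_smul, h1, smul_smul, inv_mul_cancel₀ hτl, one_smul]

/-- A symmetric-up-to-scalar form gives an involution. -/
theorem orderOf_gr_inv (hn : 3 ≤ n) {B : GL (Fin n) F₀} {c : F₀ˣ}
    (hc : (B : Matrix (Fin n) (Fin n) F₀)ᵀ = (c : F₀) • (B : Matrix (Fin n) (Fin n) F₀)) : orderOf (gr B⁻¹) = 2 := by
  rw [orderOf_gr_iff hn]
  refine ⟨c, ?_⟩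
  set X := ((B⁻¹ : GL (Fin n) F₀) : Matrix (Fin n) (Fin n) F₀) with hX
  have h1 : Xᵀ * (B : Matrix (Fin n) (Fin n) F₀)ᵀ = 1 := by
    rw [← Matrix.transpose_mul, gl_mi B, Matrix.transpose_one]
  rw [hc, Matrix.mul_smul] at h1
  calc X = (Xᵀ * ((c : F₀) • (B : Matrix (Fin n) (Fin n) F₀)) ) * X := by
        rw [Matrix.mul_smul, h1, Matrix.one_mul]
    _ = (c : F₀) • (Xᵀ * ((B : Matrix (Fin n) (Fin n) F₀) * X)) := by
        simp only [Matrix.mul_smul, Matrix.smul_mul, Matrix.mul_assoc]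
    _ = _ := by rw [gl_mi B, Matrix.mul_one]

/-- An involutory graph automorphism of `PSL` in terms of a form. -/
theorem exists_form_of_graphL (hn : 3 ≤ n) {y : MulAut (ProjectiveSpecialLinearGroup (Fin n) F₀)}
    (hy : IsGraphAutClassPSL y) (ho : orderOf y = 2) :
    ∃ (B : GL (Fin n) F₀) (ε : F₀), (ε = 1 ∨ ε = -1) ∧ y = gr B⁻¹ ∧
      (B : Matrix (Fin n) (Fin n) F₀)ᵀ = ε • (B : Matrix (Fin n) (Fin n) F₀) := by
  obtain ⟨g₀, rfl⟩ := exists_of_graphClass hy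
  obtain ⟨c, hc⟩ := (orderOf_gr_iff hn g₀).1 ho
  have hs := sign_of_sym (by omega) g₀ c hc
  have hcc := sign_sq hs
  refine ⟨g₀⁻¹, c, hs, by rw [inv_inv], ?_⟩
  set X := ((g₀⁻¹ : GL (Fin n) F₀) : Matrix (Fin n) (Fin n) F₀) with hX
  set G := (g₀ : Matrix (Fin n) (Fin n) F₀) with hG
  have hGt : Gᵀ = (c : F₀) • G := by
    conv_rhs => rw [hc]
    rw [smul_smul, hcc, one_smul]
  have h1 : Xᵀ * Gᵀ = 1 := by
    rw [← Matrix.transpose_mul, gl_mi g₀, Matrix.transpose_one]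
  rw [hGt, Matrix.mul_smul] at h1
  calc Xᵀ = Xᵀ * (G * X) := by rw [gl_mi g₀, Matrix.mul_one]
    _ = (Xᵀ * G) * X := by rw [Matrix.mul_assoc]
    _ = ((c : F₀) • ((c : F₀) • (Xᵀ * G))) * X := by rw [smul_smul, hcc, one_smul]
    _ = (c : F₀) • X := by rw [h1, Matrix.smul_mul, Matrix.one_mul]

/-! ### The link -/

/-- The relation between involutory graph automorphisms of `PSU_n(q)` and of `PSL_n(q)`. -/
def Link (hF : Fintype.card F = q ^ 2) (ι : F₀ →+* F) (γ : MulAut (PSU n F q))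
    (y : MulAut (ProjectiveSpecialLinearGroup (Fin n) F₀)) : Prop :=
  ∃ (g : GL (Fin n) F) (hg : g ∈ GU n F q) (B : GL (Fin n) F₀), IsRep hF ι g B ∧ γ = semiAut hg (tauE hF) ∧ y = gr B⁻¹

theorem isConj_gr_inv_iff (hn : 2 ≤ n) (B B' : GL (Fin n) F₀) :
    IsConjUnder (inndiagPSL n F₀) (gr B⁻¹) (gr B'⁻¹) ↔
      ∃ (w : GL (Fin n) F₀) (c : F₀ˣ), (w : Matrix (Fin n) (Fin n) F₀)ᵀ * B' * w = (c : F₀) • (B : Matrix (Fin n) (Fin n) F₀) := by
  rw [isConj_gr_iff hn]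
  simp only [sim_inv_iff₂]

section WithP

variable {p : ℕ} [hp : Fact p.Prime] [hch : CharP F p]
include hp hch

theorem exists_link_of_U (hF : Fintype.card F = q ^ 2) (hn : 3 ≤ n) (hι : Emb hF ι) {γ : MulAut (PSU n F q)}
    (hγ : IsGraphAutClassPSU γ) (ho : orderOf γ = 2) :
    ∃ y : MulAut (ProjectiveSpecialLinearGroup (Fin n) F₀), IsGraphAutClassPSL y ∧ orderOf y = 2 ∧ Link hF ι γ y := by
  obtain ⟨g, hg, μ, rfl, hμ⟩ := exists_of_graph (p := p) hF hn hγ ho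
  obtain ⟨B, hr⟩ := exists_form_of_inv (by omega) hι hg hμ
  obtain ⟨c, hc⟩ := form_symm_of_rep (by omega) hι hr
  exact ⟨gr B⁻¹, isGraphClass_gr hn _, orderOf_gr_inv hn hc, g, hg, B, hr, rfl, rfl⟩

theorem exists_link_of_L (hF : Fintype.card F = q ^ 2) (hn : 3 ≤ n) (hι : Emb hF ι)
    {y : MulAut (ProjectiveSpecialLinearGroup (Fin n) F₀)} (hy : IsGraphAutClassPSL y) (ho : orderOf y = 2) :
    ∃ γ : MulAut (PSU n F q), IsGraphAutClassPSU γ ∧ orderOf γ = 2 ∧ Link hF ι γ y := by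
  obtain ⟨B, ε, hε, rfl, hB⟩ := exists_form_of_graphL hn hy ho
  obtain ⟨g, hg, hr⟩ := exists_rep_of_form hι B hε hB
  obtain ⟨c, hc⟩ := rep_mul_T hr
  exact ⟨semiAut hg (tauE hF), isGraph_semiAut hF hn hg, orderOf_semiAut (p := p) hF hn hg hc, g, hg, B, hr, rfl, rfl⟩

theorem link_conj (hF : Fintype.card F = q ^ 2) (hn : 3 ≤ n) (hι : Emb hF ι) {γ γ' : MulAut (PSU n F q)}
    {y y' : MulAut (ProjectiveSpecialLinearGroup (Fin n) F₀)} (h : Link hF ι γ y) (h' : Link hF ι γ' y') :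
    IsConjUnder (inndiagPSU n F q) γ γ' ↔ IsConjUnder (inndiagPSL n F₀) y y' := by
  obtain ⟨g, hg, B, hr, rfl, rfl⟩ := h
  obtain ⟨g', hg', B', hr', rfl, rfl⟩ := h'
  rw [isConj_gr_inv_iff (by omega), ← conj_iff (by omega) hι hg hg' hr hr']
  constructor
  · rintro ⟨a, ha, he⟩
    obtain ⟨u, rfl⟩ := (Cfsg.Agent.Lib.AutPSU.mem_inndiag_iff a).1 ha
    obtain ⟨μ, hμ⟩ := (conj_eq_iff (p := p) hF hn u.2 hg hg').1 he.symm
    exact ⟨u.1, u.2, μ, hμ⟩
  · rintro ⟨u, hu, μ, hμ⟩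
    exact ⟨inHomU n F q ⟨u, hu⟩, (Cfsg.Agent.Lib.AutPSU.mem_inndiag_iff _).2 ⟨_, rfl⟩,
      ((conj_eq_iff (p := p) hF hn hu hg hg').2 ⟨μ, hμ⟩).symm⟩

end WithP

/-! ### The centraliser -/

/-- The similarity group of a bilinear form. -/
def simG (B : GL (Fin n) F₀) : Subgroup (GL (Fin n) F₀) where
  carrier := {w | ∃ c : F₀ˣ, (w : Matrix (Fin n) (Fin n) F₀)ᵀ * B * w = (c : F₀) • (B : Matrix (Fin n) (Fin n) F₀)}
  mul_mem' := by
    rintro a b ⟨c, hc⟩ ⟨d, hd⟩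
    refine ⟨c * d, ?_⟩
    rw [Units.val_mul, Matrix.transpose_mul, Units.val_mul, mul_smul]
    calc (b : Matrix (Fin n) (Fin n) F₀)ᵀ * (a : Matrix (Fin n) (Fin n) F₀)ᵀ * B * (a * b)
        = (b : Matrix (Fin n) (Fin n) F₀)ᵀ * ((a : Matrix (Fin n) (Fin n) F₀)ᵀ * B * a) * b := by simp only [Matrix.mul_assoc]
      _ = (c : F₀) • ((b : Matrix (Fin n) (Fin n) F₀)ᵀ * B * b) := by
          rw [hc, Matrix.mul_smul, Matrix.smul_mul]
      _ = _ := by rw [hd]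
  one_mem' := ⟨1, by simp⟩
  inv_mem' := by
    rintro a ⟨c, hc⟩
    refine ⟨c⁻¹, ?_⟩
    set U := (a : Matrix (Fin n) (Fin n) F₀) with hU
    set V := ((a⁻¹ : GL (Fin n) F₀) : Matrix (Fin n) (Fin n) F₀) with hV
    have hUV : U * V = 1 := gl_mi a
    have hVU : V * U = 1 := gl_im a
    have hVt : Vᵀ * Uᵀ = 1 := by rw [← Matrix.transpose_mul, hUV, Matrix.transpose_one]
    have hc0 : (c : F₀) ≠ 0 := c.ne_zero
    rw [Units.val_inv_eq_inv_val]
    calc Vᵀ * (B : Matrix (Fin n) (Fin n) F₀) * V = (c : F₀)⁻¹ • (Vᵀ * ((c : F₀) • (B : Matrix (Fin n) (Fin n) F₀)) * V) := by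
          rw [Matrix.mul_smul, Matrix.smul_mul, smul_smul, inv_mul_cancel₀ hc0, one_smul]
      _ = (c : F₀)⁻¹ • (Vᵀ * (Uᵀ * (B : Matrix (Fin n) (Fin n) F₀) * U) * V) := by rw [hc]
      _ = (c : F₀)⁻¹ • ((Vᵀ * Uᵀ) * (B : Matrix (Fin n) (Fin n) F₀) * (U * V)) := by simp only [Matrix.mul_assoc]
      _ = _ := by rw [hVt, hUV, Matrix.one_mul, Matrix.mul_one]

theorem mem_simG (B w : GL (Fin n) F₀) :
    w ∈ simG B ↔ ∃ c : F₀ˣ, (w : Matrix (Fin n) (Fin n) F₀)ᵀ * B * w = (c : F₀) • (B : Matrix (Fin n) (Fin n) F₀) := Iff.rfl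

theorem cmp_mul (P : GL (Fin n) F) (w w' : GL (Fin n) F₀) : cmp ι P P (w * w') = cmp ι P P w * cmp ι P P w' := by
  simp only [cmp, map_mul]
  group

theorem cmp_scalar (P : GL (Fin n) F) {w : GL (Fin n) F₀} {c : F₀ˣ} (hw : (w : Matrix (Fin n) (Fin n) F₀) = (c : F₀) • 1) :
    cmp ι P P w = sc (Units.map (ι : F₀ →* F) c) := by
  have h1 : Matrix.GeneralLinearGroup.map ι w = sc (Units.map (ι : F₀ →* F) c) := by
    apply Units.ext
    rw [scalar_coe]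
    change (w : Matrix (Fin n) (Fin n) F₀).map ι = _
    rw [hw]
    ext i j
    by_cases hij : i = j
    · subst hij
      simp
    · simp [hij]
  rw [cmp, h1, ← scalar_central, mul_inv_cancel_right]

theorem rG_refl (x : GL (Fin n) F₀) : rG (Equiv.refl (Fin n)) x = x := by
  apply Units.ext
  rw [rG_coe]
  ext i j
  simp

section WithP

variable {p : ℕ} [hp : Fact p.Prime] [hch : CharP F p]
include hp hch

/-- The centraliser of `semiAut g τ` is the similarity group of the form modulo scalars. -/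
theorem cent_simG (hF : Fintype.card F = q ^ 2) (hn : 3 ≤ n) (hι : Emb hF ι) {g : GL (Fin n) F} (hg : g ∈ GU n F q)
    {B : GL (Fin n) F₀} (hr : IsRep hF ι g B) :
    Nonempty (↥(inndiagPSU n F q ⊓ Subgroup.centralizer {semiAut hg (tauE hF)}) ≃* projQuot (simG B)) := by
  classical
  have hn1 : 1 ≤ n := by omega
  obtain ⟨P, ν, l, hPg, hP⟩ := hr
  -- the relation
  let L : ↥(simG B) → MulAut (PSU n F q) → Prop := fun w β =>
    ∃ (x : Fˣ) (hx : sc x * cmp ι P P w.1 ∈ GU n F q), β = inHomU n F q ⟨_, hx⟩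
  have hex : ∀ w, ∃ β, L w β := by
    rintro ⟨w, c, hc⟩
    obtain ⟨x, hx⟩ := exists_unitary hn1 hι hP hP hc
    exact ⟨_, x, hx, rfl⟩
  have huniq : ∀ w β β', L w β → L w β' → β = β' := by
    rintro w _ _ ⟨x, hx, rfl⟩ ⟨x', hx', rfl⟩
    have h1 : sc x' * cmp ι P P w.1 = sc (x' * x⁻¹) * (sc x * cmp ι P P w.1) := by
      rw [sc_mul, sc_inv, mul_assoc, inv_mul_cancel_left]
    have hsc : (sc (x' * x⁻¹) : GL (Fin n) F) ∈ GU n F q := by
      have h2 : (sc (x' * x⁻¹) : GL (Fin n) F) = (sc x' * cmp ι P P w.1) * (sc x * cmp ι P P w.1)⁻¹ := by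
        rw [h1, mul_inv_cancel_right]
      rw [h2]
      exact mul_mem hx' (inv_mem hx)
    have hnorm := norm_of_scalar_mem hF hn1 hsc rfl
    rw [inHomU_apply, inHomU_apply]
    change semiAut hx _ = semiAut hx' _
    rw [semiAut_congr hx' (smulGL_mem hnorm hx) h1, semiAut_smulGL hnorm]
  have hmul : ∀ w w' β β', L w β → L w' β' → L (w * w') (β * β') := by
    rintro w w' _ _ ⟨x, hx, rfl⟩ ⟨x', hx', rfl⟩
    have h1 : sc (x * x') * cmp ι P P (w * w').1 = (sc x * cmp ι P P w.1) * (sc x' * cmp ι P P w'.1) := by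
      change sc (x * x') * cmp ι P P (w.1 * w'.1) = _
      rw [cmp_mul, sc_mul]
      calc sc x * sc x' * (cmp ι P P w.1 * cmp ι P P w'.1) = sc x * (sc x' * cmp ι P P w.1) * cmp ι P P w'.1 := by group
        _ = sc x * (cmp ι P P w.1 * sc x') * cmp ι P P w'.1 := by rw [scalar_central x' (cmp ι P P w.1)]
        _ = _ := by group
    have hm : sc (x * x') * cmp ι P P (w * w').1 ∈ GU n F q := by
      rw [h1]
      exact mul_mem hx hx'
    refine ⟨x * x', hm, ?_⟩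
    rw [← map_mul]
    congr 1
    exact Subtype.ext h1.symm
  obtain ⟨Φ, hΦ⟩ := Cfsg.Agent.Lib.OutPSL.exists_hom_of_rel L hex huniq hmul
  have hcomm : ∀ w, Φ w * semiAut hg (tauE hF) = semiAut hg (tauE hF) * Φ w := by
    intro w
    obtain ⟨x, hx, hw⟩ := hΦ w
    rw [hw]
    have h1 := (conj_eq_iff (p := p) hF hn hx hg hg).2 ⟨(x * ν⁻¹ * (tu hF x)⁻¹ * ν)⁻¹, by
      rw [conj_cmp hι w.1 hPg hPg, sc_inv, inv_mul_cancel_left]⟩
    calc _ = (inHomU n F q ⟨_, hx⟩ * semiAut hg (tauE hF) * (inHomU n F q ⟨_, hx⟩)⁻¹) * inHomU n F q ⟨_, hx⟩ := by group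
      _ = _ := by rw [h1]
  have hmem : ∀ w, Φ w ∈ inndiagPSU n F q ⊓ Subgroup.centralizer {semiAut hg (tauE hF)} := by
    intro w
    refine ⟨?_, ?_⟩
    · obtain ⟨x, hx, hw⟩ := hΦ w
      exact (Cfsg.Agent.Lib.AutPSU.mem_inndiag_iff _).2 ⟨_, hw.symm⟩
    · change Φ w ∈ Subgroup.centralizer {semiAut hg (tauE hF)}
      rw [Subgroup.mem_centralizer_singleton_iff]
      exact hcomm w
  let Ψ : ↥(simG B) →* ↥(inndiagPSU n F q ⊓ Subgroup.centralizer {semiAut hg (tauE hF)}) := Φ.codRestrict _ hmem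
  have hΨ : ∀ w, ((Ψ w : ↥(inndiagPSU n F q ⊓ Subgroup.centralizer {semiAut hg (tauE hF)})) : MulAut (PSU n F q)) = Φ w := fun _ => rfl
  have hsurj : Function.Surjective Ψ := by
    rintro ⟨β, hβ1, hβ2⟩
    obtain ⟨u, rfl⟩ := (Cfsg.Agent.Lib.AutPSU.mem_inndiag_iff β).1 hβ1
    have hβ2' : inHomU n F q u ∈ Subgroup.centralizer {semiAut hg (tauE hF)} := hβ2
    rw [Subgroup.mem_centralizer_singleton_iff] at hβ2'
    have h1 : inHomU n F q ⟨u.1, u.2⟩ * semiAut hg (tauE hF) * (inHomU n F q ⟨u.1, u.2⟩)⁻¹ = semiAut hg (tauE hF) := by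
      change inHomU n F q u * semiAut hg (tauE hF) * (inHomU n F q u)⁻¹ = _
      rw [hβ2']
      group
    obtain ⟨μ, hμ⟩ := (conj_eq_iff (p := p) hF hn u.2 hg hg).1 h1
    obtain ⟨w, x, hw⟩ := exists_cmp_of_conj hn1 hι hPg hPg hμ
    have hx : sc x * cmp ι P P w ∈ GU n F q := by
      rw [← hw]
      exact u.2
    obtain ⟨c, hc⟩ := sim_of_unitary hn1 hι hP hP hx
    refine ⟨⟨w, c, hc⟩, ?_⟩
    apply Subtype.ext
    rw [hΨ]
    apply huniq ⟨w, c, hc⟩ _ _ (hΦ _)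
    refine ⟨x, hx, ?_⟩
    have hu' : u = ⟨sc x * cmp ι P P w, hx⟩ := Subtype.ext hw
    exact congrArg (inHomU n F q) hu'
  have hker : (Geo.scalars (Fin n) F₀).subgroupOf (simG B) = Ψ.ker := by
    ext w
    rw [MonoidHom.mem_ker, Subgroup.mem_subgroupOf, Geo.mem_scalars_iff]
    constructor
    · rintro ⟨c, hc⟩
      apply Subtype.ext
      rw [hΨ]
      obtain ⟨x, hx, hw⟩ := hΦ w
      rw [hw]
      change _ = (1 : MulAut (PSU n F q))
      have hs : sc x * cmp ι P P w.1 = sc (x * Units.map (ι : F₀ →* F) c) := by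
        rw [cmp_scalar P hc, sc_mul]
      exact semiAut_scalar_one (norm_of_scalar_mem hF hn1 hx hs) hx hs
    · intro hw1
      have h0 : Φ w = 1 := by
        rw [← hΨ, hw1]
        rfl
      obtain ⟨x, hx, hw⟩ := hΦ w
      rw [h0] at hw
      have h1 : semiAut (one_mem (GU n F q)) (RingEquiv.refl F) = semiAut hx (RingEquiv.refl F) := by
        rw [← inHomU_apply ⟨_, hx⟩, ← hw]
        exact (inHomU n F q).map_one
      obtain ⟨-, μ, hμ, hμg⟩ := semiAut_eq_imp (p := p) hF hn _ _ h1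
      have hμ0 : μ ≠ 0 := left_ne_zero_of_mul_eq_one hμ
      rw [Units.val_one, smulGL_val] at hμg
      -- conjugate back
      set κ : F := (x : F)⁻¹ * μ with hκ
      have hκ0 : κ ≠ 0 := mul_ne_zero (inv_ne_zero x.ne_zero) hμ0
      have h2 : (cmp ι P P w.1 : Matrix (Fin n) (Fin n) F) = κ • 1 := by
        rw [hκ, mul_smul, ← hμg, smul_smul, inv_mul_cancel₀ x.ne_zero, one_smul]
      have h3 : (w.1 : Matrix (Fin n) (Fin n) F₀).map ι = κ • 1 := by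
        rw [cmp_coe] at h2
        calc (w.1 : Matrix (Fin n) (Fin n) F₀).map ι
            = ((P⁻¹ : GL (Fin n) F) : Matrix (Fin n) (Fin n) F) * ((P : Matrix (Fin n) (Fin n) F) * (w.1 : Matrix (Fin n) (Fin n) F₀).map ι * ((P⁻¹ : GL (Fin n) F) : Matrix (Fin n) (Fin n) F)) * (P : Matrix (Fin n) (Fin n) F) := by
              rw [← Matrix.mul_assoc, ← Matrix.mul_assoc, gl_im P, Matrix.one_mul, Matrix.mul_assoc, gl_im P, Matrix.mul_one]
          _ = ((P⁻¹ : GL (Fin n) F) : Matrix (Fin n) (Fin n) F) * (κ • 1) * (P : Matrix (Fin n) (Fin n) F) := by rw [h2]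
          _ = _ := by
              rw [Matrix.mul_smul, Matrix.smul_mul, Matrix.mul_one, gl_im P]
      exact scalar_of_map hn1 w.1 hκ0 h3
  exact ⟨((QuotientGroup.quotientMulEquivOfEq hker).trans (QuotientGroup.quotientKerEquivOfSurjective Ψ hsurj)).symm⟩

/-- Centralisers correspond under the link. -/
theorem link_cent (hF : Fintype.card F = q ^ 2) (hn : 3 ≤ n) (hι : Emb hF ι) {γ : MulAut (PSU n F q)}
    {y : MulAut (ProjectiveSpecialLinearGroup (Fin n) F₀)} (h : Link hF ι γ y) :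
    Nonempty (↥(inndiagPSU n F q ⊓ Subgroup.centralizer {γ}) ≃* ↥(inndiagPSL n F₀ ⊓ Subgroup.centralizer {y})) := by
  obtain ⟨g, hg, B, hr, rfl, rfl⟩ := h
  obtain ⟨e₁⟩ := cent_simG (p := p) hF hn hι hg hr
  obtain ⟨e₂⟩ := graph_cent_equiv (F := F₀) (n := n) (by omega) (Equiv.refl (Fin n)) B (simG B) (mem_simG B)
  rw [rG_refl] at e₂
  exact ⟨e₁.trans e₂.symm⟩

end WithP

end Cfsg.Agent.Lib.AutPSU.GB
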