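import Cfsg.Agent.Lib.AutPSU.GraphBridge

/-!
# Involutory graph automorphisms of `PSU_n(q)`: the correspondence with `PSL_n(q)`
-/

set_option autoImplicit false
set_option linter.unusedSectionVars false
set_option linter.unusedSimpArgs false
set_option linter.unusedVariables false
set_option linter.style.haveILetI false

namespace Cfsg.Agent.Lib.AutPSU.GB

open Module Matrix Cfsg
open Cfsg.Agent.Lib.Hilbert90
open Cfsg.Agent.Lib.AutPSL (glMap glMap_coe nrm nrm_succ nrm_succ' glMap_scalar scalar_coe invT invT_coe invT_inv_coe gr dl)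
open scoped MatrixGroups

variable {F : Type*} [Field F] [Fintype F] {q n : ℕ}
variable {F₀ : Type*} [Field F₀] [Fintype F₀]
variable {hF : Fintype.card F = q ^ 2} {ι : F₀ →+* F}

local notation "sc" => Matrix.GeneralLinearGroup.scalar (Fin n)

/-! ### The twisted conjugate -/

theorem conj_mem (hF : Fintype.card F = q ^ 2) {u g : GL (Fin n) F} (hu : u ∈ GU n F q) (hg : g ∈ GU n F q) :
    u * g * glMap (tauE hF) u⁻¹ ∈ GU n F q :=
  mul_mem (mul_mem hu hg) (glMap_mem (inv_mem hu) _)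

theorem inHomU_conj (hF : Fintype.card F = q ^ 2) {u g : GL (Fin n) F} (hu : u ∈ GU n F q) (hg : g ∈ GU n F q) :
    inHomU n F q ⟨u, hu⟩ * semiAut hg (tauE hF) * (inHomU n F q ⟨u, hu⟩)⁻¹ =
      semiAut (conj_mem hF hu hg) (tauE hF) := by
  have h1 : (inHomU n F q ⟨u, hu⟩)⁻¹ = semiAut (inv_mem hu) (RingEquiv.refl F) := by
    rw [← map_inv]
    rfl
  rw [h1, inHomU_apply, semiAut_mul, semiAut_mul]
  apply semiAut_congr
  have h2 : Matrix.GeneralLinearGroup.map ((RingEquiv.refl F : F ≃+* F) : F →+* F) g = g := by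
    apply Units.ext
    ext i j
    rfl
  simp only [gMul, h2]
  rfl

section WithP

variable {p : ℕ} [hp : Fact p.Prime] [hch : CharP F p]
include hp hch

theorem conj_eq_iff (hF : Fintype.card F = q ^ 2) (hn : 3 ≤ n) {u g g' : GL (Fin n) F} (hu : u ∈ GU n F q) (hg : g ∈ GU n F q)
    (hg' : g' ∈ GU n F q) :
    inHomU n F q ⟨u, hu⟩ * semiAut hg (tauE hF) * (inHomU n F q ⟨u, hu⟩)⁻¹ = semiAut hg' (tauE hF) ↔
      ∃ μ : Fˣ, g' = sc μ * (u * g * glMap (tauE hF) u⁻¹) := by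
  rw [inHomU_conj]
  constructor
  · intro h
    obtain ⟨-, μ, hμ, hm⟩ := semiAut_eq_imp (p := p) hF hn _ _ h
    have hμ0 : μ ≠ 0 := left_ne_zero_of_mul_eq_one hμ
    refine ⟨Units.mk0 μ hμ0, ?_⟩
    apply Units.ext
    rw [smulGL_val, Units.val_mk0]
    exact hm
  · rintro ⟨μ, hμ⟩
    have hsc : (sc μ : GL (Fin n) F) ∈ GU n F q := by
      have h1 : (sc μ : GL (Fin n) F) = g' * (u * g * glMap (tauE hF) u⁻¹)⁻¹ := by
        rw [hμ, mul_inv_cancel_right]
      rw [h1]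
      exact mul_mem hg' (inv_mem (conj_mem hF hu hg))
    have hnorm := norm_of_scalar_mem hF (by omega) hsc rfl
    rw [semiAut_congr _ (smulGL_mem hnorm (conj_mem hF hu hg)) hμ, semiAut_smulGL hnorm]

end WithP

/-- The relation between conjugacy of `g, g'` and congruence of `B, B'`. -/
theorem conj_iff (hn : 1 ≤ n) (hι : Emb hF ι) {g g' : GL (Fin n) F} (hg : g ∈ GU n F q) (hg' : g' ∈ GU n F q)
    {B B' : GL (Fin n) F₀} (hr : IsRep hF ι g B) (hr' : IsRep hF ι g' B') :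
    (∃ u ∈ GU n F q, ∃ μ : Fˣ, g' = sc μ * (u * g * glMap (tauE hF) u⁻¹)) ↔
      ∃ (w : GL (Fin n) F₀) (c : F₀ˣ), (w : Matrix (Fin n) (Fin n) F₀)ᵀ * B' * w = (c : F₀) • (B : Matrix (Fin n) (Fin n) F₀) := by
  obtain ⟨P, ν, l, hPg, hP⟩ := hr
  obtain ⟨P', ν', l', hPg', hP'⟩ := hr'
  constructor
  · rintro ⟨u, hu, μ, h⟩
    obtain ⟨w, x, rfl⟩ := exists_cmp_of_conj hn hι hPg hPg' h
    obtain ⟨c, hc⟩ := sim_of_unitary hn hι hP hP' hu
    exact ⟨w, c, hc⟩
  · rintro ⟨w, c, hc⟩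
    obtain ⟨x, hx⟩ := exists_unitary hn hι hP hP' hc
    refine ⟨_, hx, (x * ν⁻¹ * (tu hF x)⁻¹ * ν')⁻¹, ?_⟩
    rw [conj_cmp hι w hPg hPg', sc_inv, inv_mul_cancel_left]

/-! ### `g τ(g)` is scalar -/

theorem rep_mul_T {g : GL (Fin n) F} {B : GL (Fin n) F₀} (hr : IsRep hF ι g B) :
    ∃ c : Fˣ, g * glMap (tauE hF) g = sc c := by
  obtain ⟨P, ν, l, hPg, hP⟩ := hr
  refine ⟨ν⁻¹ * (tu hF ν)⁻¹, ?_⟩
  have h1 := eq_of_rep hPg
  have h2 : glMap (tauE hF) g = sc (tu hF ν)⁻¹ * (glMap (tauE hF) P * P⁻¹) := by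
    have h8 : tu hF ν⁻¹ = (tu hF ν)⁻¹ := map_inv _ _
    rw [h1, map_mul, map_mul, map_inv (glMap (tauE hF)) (glMap (tauE hF) P), T_T, T_sc, h8]
  rw [h2, h1, sc_mul, sc_inv, sc_inv]
  have hc : ∀ y : GL (Fin n) F, (sc (tu hF ν))⁻¹ * y = y * (sc (tu hF ν))⁻¹ := by
    intro y
    rw [← sc_inv]
    exact scalar_central _ _
  calc (sc ν)⁻¹ * (P * (glMap (tauE hF) P)⁻¹) * ((sc (tu hF ν))⁻¹ * (glMap (tauE hF) P * P⁻¹))
      = (sc ν)⁻¹ * ((P * (glMap (tauE hF) P)⁻¹) * (sc (tu hF ν))⁻¹) * (glMap (tauE hF) P * P⁻¹) := by group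
    _ = (sc ν)⁻¹ * ((sc (tu hF ν))⁻¹ * (P * (glMap (tauE hF) P)⁻¹)) * (glMap (tauE hF) P * P⁻¹) := by rw [hc]
    _ = _ := by group

theorem isGraph_semiAut (hF : Fintype.card F = q ^ 2) (hn : 3 ≤ n) {g : GL (Fin n) F} (hg : g ∈ GU n F q) :
    IsGraphAutClassPSU (semiAut hg (tauE hF)) := by
  refine ⟨hn, inHomU n F q ⟨g, hg⟩, faU n F q (tauE hF), tauE hF, ?_, isInnerDiag_semiAut hg, isFieldAut_semiAut _, semiAut_eq_mul hg _⟩
  rw [orderOf_tauE]
  exact even_two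

section WithP

variable {p : ℕ} [hp : Fact p.Prime] [hch : CharP F p]
include hp hch

theorem orderOf_semiAut (hF : Fintype.card F = q ^ 2) (hn : 3 ≤ n) {g : GL (Fin n) F} (hg : g ∈ GU n F q) {c : Fˣ}
    (hc : g * glMap (tauE hF) g = sc c) : orderOf (semiAut hg (tauE hF)) = 2 := by
  haveI : Fact (Nat.Prime 2) := ⟨Nat.prime_two⟩
  apply orderOf_eq_prime
  · rw [pow_two, semiAut_mul]
    have h1 : tauE hF * tauE hF = RingEquiv.refl F := by
      have := tauE_sq hF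
      rwa [pow_two] at this
    rw [h1]
    exact semiAut_scalar_one (norm_of_scalar_mem hF (by omega) (gMul_mem hg hg _) hc) _ hc
  · intro h
    have h1 : semiAut hg (tauE hF) = semiAut (one_mem (GU n F q)) (RingEquiv.refl F) := by
      rw [h]
      exact (inHomU n F q).map_one.symm
    have h2 := (semiAut_eq_imp (p := p) hF hn _ _ h1).1
    exact tauE_ne_one hF h2.symm

/-- The shape of an involutory graph automorphism. -/
theorem exists_of_graph (hF : Fintype.card F = q ^ 2) (hn : 3 ≤ n) {γ : MulAut (PSU n F q)}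
    (hγ : IsGraphAutClassPSU γ) (ho : orderOf γ = 2) :
    ∃ (g : GL (Fin n) F) (hg : g ∈ GU n F q) (μ : Fˣ), γ = semiAut hg (tauE hF) ∧ g * glMap (tauE hF) g = sc μ := by
  obtain ⟨-, δ, φ, σ, he, hδ, hφ, rfl⟩ := hγ
  obtain ⟨u, rfl⟩ := (mem_inndiag_iff δ).1 (Subgroup.subset_closure hδ)
  rw [eq_faU hφ] at ho ⊢
  rw [← semiAut_eq_mul u.2 σ] at ho ⊢
  have h1 : (semiAut u.2 σ) ^ 2 = 1 := by
    rw [← ho]
    exact pow_orderOf_eq_one _
  rw [semiAut_pow] at h1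
  have h2 : semiAut (nrm_mem u.2 σ 2) (σ ^ 2) = semiAut (one_mem (GU n F q)) (RingEquiv.refl F) :=
    h1.trans (inHomU n F q).map_one.symm
  obtain ⟨hσ, μ, hμ, hm⟩ := semiAut_eq_imp (p := p) hF hn _ _ h2
  have hσ2 : σ ^ 2 = 1 := hσ.symm
  have hσ1 : σ ≠ 1 := by
    rintro rfl
    rw [orderOf_one] at he
    exact absurd he (by decide)
  obtain rfl := eq_tauE_of_sq hF hσ2 hσ1
  have hμ0 : μ ≠ 0 := left_ne_zero_of_mul_eq_one hμ
  refine ⟨u.1, u.2, (Units.mk0 μ hμ0)⁻¹, rfl, ?_⟩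
  apply Units.ext
  rw [scalar_coe, Units.val_inv_eq_inv_val, Units.val_mk0, eq_inv_smul_iff₀ hμ0]
  have h3 : nrm (tauE hF) u.1 2 = u.1 * glMap (tauE hF) u.1 := by
    simp [nrm_succ]
  rw [← h3]
  exact hm.symm

end WithP

/-! ### Existence of the relation -/

theorem tr_eq_of_inv (hF : Fintype.card F = q ^ 2) {g : GL (Fin n) F} (hg : g ∈ GU n F q) {μ : Fˣ} (hμ : g * glMap (tauE hF) g = sc μ) :
    (g : Matrix (Fin n) (Fin n) F) = (μ : F) • (g : Matrix (Fin n) (Fin n) F)ᵀ := by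
  have h1 := tr_mul_tau_of_mem hF hg
  have h2 : (g : Matrix (Fin n) (Fin n) F).map (tauE hF) * (g : Matrix (Fin n) (Fin n) F)ᵀ = 1 := mul_eq_one_comm.1 h1
  have h3 : (g : Matrix (Fin n) (Fin n) F) * (g : Matrix (Fin n) (Fin n) F).map (tauE hF) = (μ : F) • 1 := by
    have := congrArg (fun y : GL (Fin n) F => (y : Matrix (Fin n) (Fin n) F)) hμ
    simpa only [Units.val_mul, scalar_coe, glMap_coe] using this
  calc (g : Matrix (Fin n) (Fin n) F) = (g : Matrix (Fin n) (Fin n) F) * ((g : Matrix (Fin n) (Fin n) F).map (tauE hF) * (g : Matrix (Fin n) (Fin n) F)ᵀ) := by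
        rw [h2, Matrix.mul_one]
    _ = _ := by
        rw [← Matrix.mul_assoc, h3, Matrix.smul_mul, Matrix.one_mul]

theorem det_cj_ne (hF : Fintype.card F = q ^ 2) (P : GL (Fin n) F) : (cj hF (P : Matrix (Fin n) (Fin n) F)).det ≠ 0 := by
  rw [cj, Matrix.det_transpose]
  have h1 : ((P : Matrix (Fin n) (Fin n) F).map (tauE hF)).det = tauE hF (P : Matrix (Fin n) (Fin n) F).det :=
    (RingHom.map_det (tauE hF : F →+* F) _).symm
  rw [h1]
  exact (map_ne_zero _).2 (Matrix.GeneralLinearGroup.det P).ne_zero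

/-- Every `g` with `g τ(g)` scalar is related to a form. -/
theorem exists_form_of_inv (hn : 1 ≤ n) (hι : Emb hF ι) {g : GL (Fin n) F} (hg : g ∈ GU n F q) {μ : Fˣ}
    (hμ : g * glMap (tauE hF) g = sc μ) : ∃ B : GL (Fin n) F₀, IsRep hF ι g B := by
  have hsym := tr_eq_of_inv hF hg hμ
  have hs : (μ : F) = 1 ∨ (μ : F) = -1 := Cfsg.Agent.Lib.AutPSL.sign_of_sym hn g μ hsym
  have hμμ := sign_sq hs
  obtain ⟨E, hE0, hE⟩ := exists_norm_of_fixed hF (sign_ne hs) (tau_sign hF hs)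
  set ν : Fˣ := Units.mk0 E hE0 with hν
  have hνv : (ν : F) = E := rfl
  set g₁ := sc ν * g with hg₁
  have hN : nrm (tauE hF) g₁ 2 = 1 := by
    have h1 : nrm (tauE hF) g₁ 2 = g₁ * glMap (tauE hF) g₁ := by
      simp [nrm_succ]
    rw [h1, hg₁, map_mul, T_sc]
    have h2 : sc ν * g * (sc (tu hF ν) * glMap (tauE hF) g) = sc (ν * tu hF ν) * (g * glMap (tauE hF) g) := by
      rw [sc_mul]
      calc sc ν * g * (sc (tu hF ν) * glMap (tauE hF) g) = sc ν * (g * sc (tu hF ν)) * glMap (tauE hF) g := by group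
        _ = sc ν * (sc (tu hF ν) * g) * glMap (tauE hF) g := by rw [scalar_central (tu hF ν) g]
        _ = _ := by group
    rw [h2, hμ, ← sc_mul]
    have h3 : ν * tu hF ν * μ = 1 := by
      apply Units.ext
      rw [Units.val_mul, Units.val_mul, tu_val, hνv, hE, hμμ, Units.val_one]
    rw [h3, map_one]
  obtain ⟨P, hP⟩ := Cfsg.Agent.Lib.AutPSL.h90 (tauE hF) (by omega) (orderOf_tauE hF) g₁ hN
  -- the form
  set S := cj hF (P : Matrix (Fin n) (Fin n) F) * (P : Matrix (Fin n) (Fin n) F) with hS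
  set Q := (P : Matrix (Fin n) (Fin n) F).map (tauE hF) with hQ
  set Qi := ((P⁻¹ : GL (Fin n) F) : Matrix (Fin n) (Fin n) F).map (tauE hF) with hQi
  have hQQi : Qi * Q = 1 := by
    have h1 : glMap (tauE hF) P⁻¹ * glMap (tauE hF) P = 1 := by rw [← map_mul, inv_mul_cancel, map_one]
    have h2 := congrArg (fun y : GL (Fin n) F => (y : Matrix (Fin n) (Fin n) F)) h1
    simpa only [Units.val_mul, glMap_coe, Units.val_one] using h2
  have hg₁m : (g₁ : Matrix (Fin n) (Fin n) F) = (P : Matrix (Fin n) (Fin n) F) * Qi := by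
    have h2 := congrArg (fun y : GL (Fin n) F => (y : Matrix (Fin n) (Fin n) F)) hP
    simpa only [Units.val_mul, glMap_coe] using h2
  have hg₁s : (g₁ : Matrix (Fin n) (Fin n) F) = (μ : F) • (g₁ : Matrix (Fin n) (Fin n) F)ᵀ := by
    rw [hg₁, smulGL_val, Matrix.transpose_smul, smul_comm]
    congr 1
  have hS1 : S = (μ : F) • S.map (tauE hF) := by
    have h3 : S.map (tauE hF) = (P : Matrix (Fin n) (Fin n) F)ᵀ * Q := by
      rw [hS, Matrix.map_mul, cj, Matrix.transpose_map, map_map_tau]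
    have h4 : Qᵀ * Qiᵀ = 1 := by
      rw [← Matrix.transpose_mul, hQQi, Matrix.transpose_one]
    rw [h3, hS, cj]
    rw [hg₁m, Matrix.transpose_mul] at hg₁s
    calc Qᵀ * (P : Matrix (Fin n) (Fin n) F) = Qᵀ * ((P : Matrix (Fin n) (Fin n) F) * (Qi * Q)) := by
          rw [hQQi, Matrix.mul_one]
      _ = Qᵀ * ((P : Matrix (Fin n) (Fin n) F) * Qi) * Q := by simp only [Matrix.mul_assoc]
      _ = Qᵀ * ((μ : F) • (Qiᵀ * (P : Matrix (Fin n) (Fin n) F)ᵀ)) * Q := by rw [hg₁s]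
      _ = (μ : F) • ((Qᵀ * Qiᵀ) * (P : Matrix (Fin n) (Fin n) F)ᵀ * Q) := by
          simp only [Matrix.mul_smul, Matrix.smul_mul, Matrix.mul_assoc]
      _ = _ := by rw [h4, Matrix.one_mul]
  have hS2 : S.map (tauE hF) = (μ : F) • S := by
    conv_rhs => rw [hS1]
    rw [smul_smul, hμμ, one_smul]
  obtain ⟨l, hl0, hl⟩ := exists_sign_elt hF hs
  have hfix : ((l⁻¹ • S).map (tauE hF)) = l⁻¹ • S := by
    have h5 : (l⁻¹ • S).map (tauE hF) = tauE hF l⁻¹ • S.map (tauE hF) := by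
      ext i j
      simp
    rw [h5, hS2, smul_smul, map_inv₀, hl]
    congr 1
    have hμ0 := sign_ne hs
    field_simp
  have hdet : (l⁻¹ • S).det ≠ 0 := by
    rw [Matrix.det_smul, hS, Matrix.det_mul]
    exact mul_ne_zero (pow_ne_zero _ (inv_ne_zero hl0)) (mul_ne_zero (det_cj_ne hF P) (Matrix.GeneralLinearGroup.det P).ne_zero)
  obtain ⟨B, hB⟩ := hι.exists_GL _ hfix hdet
  refine ⟨B, P, ν, Units.mk0 l hl0, hP, ?_⟩
  rw [hB, Units.val_mk0, smul_smul, mul_inv_cancel₀ hl0, one_smul]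

/-- Every form is related to some unitary `g`. -/
theorem exists_rep_of_form (hι : Emb hF ι) (B : GL (Fin n) F₀) {ε : F₀} (hε : ε = 1 ∨ ε = -1)
    (hB : (B : Matrix (Fin n) (Fin n) F₀)ᵀ = ε • (B : Matrix (Fin n) (Fin n) F₀)) :
    ∃ g : GL (Fin n) F, g ∈ GU n F q ∧ IsRep hF ι g B := by
  have hs : ι ε = 1 ∨ ι ε = -1 := by
    rcases hε with rfl | rfl
    · left
      exact map_one ι
    · right
      rw [map_neg, map_one]
  have hμμ := sign_sq hs
  obtain ⟨l, hl0, hl⟩ := exists_sign_elt hF hs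
  obtain ⟨E, hE0, hE⟩ := exists_norm_of_fixed hF (sign_ne hs) (tau_sign hF hs)
  set l' : Fˣ := Units.mk0 l hl0 with hl'
  set ν : Fˣ := Units.mk0 E hE0 with hν
  set H : GL (Fin n) F := sc l' * Matrix.GeneralLinearGroup.map ι B with hHdef
  have hHv : (H : Matrix (Fin n) (Fin n) F) = l • (B : Matrix (Fin n) (Fin n) F₀).map ι := by
    rw [hHdef, smulGL_val]
    rfl
  have hHτ : (H : Matrix (Fin n) (Fin n) F).map (tauE hF) = ι ε • (H : Matrix (Fin n) (Fin n) F) := by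
    rw [hHv]
    ext i j
    simp only [Matrix.map_apply, Matrix.smul_apply, smul_eq_mul, map_mul, hl, hι.fix]
    ring
  have hH : ((H : Matrix (Fin n) (Fin n) F).map (tauE hF))ᵀ = H := by
    rw [hHτ, Matrix.transpose_smul, hHv, Matrix.transpose_smul, ← Matrix.transpose_map, hB]
    ext i j
    simp only [Matrix.smul_apply, Matrix.map_apply, smul_eq_mul, map_mul]
    linear_combination (l * ι ((B : Matrix (Fin n) (Fin n) F₀) i j)) * hμμ
  obtain ⟨h, hh⟩ := Cfsg.Agent.Lib.AutPSL.herm_class (tauE hF) (orderOf_tauE hF) H hH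
  set P : GL (Fin n) F := Matrix.GeneralLinearGroup.mkOfDetNeZero _ (det_cj_ne hF h) with hPdef
  have hPv : (P : Matrix (Fin n) (Fin n) F) = cj hF (h : Matrix (Fin n) (Fin n) F) := rfl
  have hP : cj hF (P : Matrix (Fin n) (Fin n) F) * (P : Matrix (Fin n) (Fin n) F) = (l' : F) • (B : Matrix (Fin n) (Fin n) F₀).map ι := by
    rw [hPv, cj_cj, Units.val_mk0, ← hHv, hh]
    rfl
  set g : GL (Fin n) F := sc ν⁻¹ * (P * glMap (tauE hF) P⁻¹) with hg
  have hgν : sc ν * g = P * glMap (tauE hF) P⁻¹ := by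
    rw [hg, sc_inv, mul_inv_cancel_left]
  refine ⟨g, (mem_GU_iff hF).2 ?_, P, ν, l', hgν, hP⟩
  -- unitarity
  set S := cj hF (P : Matrix (Fin n) (Fin n) F) * (P : Matrix (Fin n) (Fin n) F) with hS
  set Qi := ((P⁻¹ : GL (Fin n) F) : Matrix (Fin n) (Fin n) F).map (tauE hF) with hQi
  have hSτ : S.map (tauE hF) = ι ε • S := by
    rw [hP, Units.val_mk0]
    ext i j
    simp only [Matrix.map_apply, Matrix.smul_apply, smul_eq_mul, map_mul, hl, hι.fix]
    ring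
  have hS1 : S = ι ε • S.map (tauE hF) := by
    rw [hSτ, smul_smul, hμμ, one_smul]
  have hS2 : S.map (tauE hF) = (P : Matrix (Fin n) (Fin n) F)ᵀ * (P : Matrix (Fin n) (Fin n) F).map (tauE hF) := by
    rw [hS, Matrix.map_mul, cj, Matrix.transpose_map, map_map_tau]
  have hQ1 : (P : Matrix (Fin n) (Fin n) F).map (tauE hF) * Qi = 1 := by
    have h1 : glMap (tauE hF) P * glMap (tauE hF) P⁻¹ = 1 := by rw [← map_mul, mul_inv_cancel, map_one]
    have h2 := congrArg (fun y : GL (Fin n) F => (y : Matrix (Fin n) (Fin n) F)) h1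
    simpa only [Units.val_mul, glMap_coe, Units.val_one] using h2
  have hcjQi : cj hF Qi = ((P⁻¹ : GL (Fin n) F) : Matrix (Fin n) (Fin n) F)ᵀ := by
    rw [cj, hQi, map_map_tau]
  have hQ2 : cj hF Qi * (P : Matrix (Fin n) (Fin n) F)ᵀ = 1 := by
    rw [hcjQi, ← Matrix.transpose_mul, ← Units.val_mul, mul_inv_cancel, Units.val_one, Matrix.transpose_one]
  have hM : cj hF ((P * glMap (tauE hF) P⁻¹ : GL (Fin n) F) : Matrix (Fin n) (Fin n) F) * ((P * glMap (tauE hF) P⁻¹ : GL (Fin n) F) : Matrix (Fin n) (Fin n) F) = ι ε • 1 := by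
    have h3 : ((P * glMap (tauE hF) P⁻¹ : GL (Fin n) F) : Matrix (Fin n) (Fin n) F) = (P : Matrix (Fin n) (Fin n) F) * Qi := rfl
    rw [h3, cj_mul]
    calc cj hF Qi * cj hF (P : Matrix (Fin n) (Fin n) F) * ((P : Matrix (Fin n) (Fin n) F) * Qi)
        = cj hF Qi * S * Qi := by
          rw [hS]
          simp only [Matrix.mul_assoc]
      _ = cj hF Qi * (ι ε • ((P : Matrix (Fin n) (Fin n) F)ᵀ * (P : Matrix (Fin n) (Fin n) F).map (tauE hF))) * Qi := by
          rw [← hS2, ← hS1]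
      _ = ι ε • ((cj hF Qi * (P : Matrix (Fin n) (Fin n) F)ᵀ) * ((P : Matrix (Fin n) (Fin n) F).map (tauE hF) * Qi)) := by
          simp only [Matrix.mul_smul, Matrix.smul_mul, Matrix.mul_assoc]
      _ = _ := by rw [hQ2, hQ1, Matrix.one_mul]
  rw [hg, smulGL_val, cj_smul, Matrix.smul_mul, Matrix.mul_smul, hM, smul_smul, smul_smul]
  have h4 : tauE hF ((ν⁻¹ : Fˣ) : F) * ((ν⁻¹ : Fˣ) : F) * ι ε = 1 := by
    rw [Units.val_inv_eq_inv_val, map_inv₀]
    have hνv : (ν : F) = E := rfl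
    rw [hνv, ← hE]
    have hτE : tauE hF E ≠ 0 := (map_ne_zero _).2 hE0
    field_simp
  rw [h4, one_smul]

end Cfsg.Agent.Lib.AutPSU.GB
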